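import Mathlib
import Cfsg.Agent.H27.D8C
import Cfsg.Agent.H3.Dihedral
import Cfsg.Agent.H86.AltSix

/-!
# Involution centralizers of `A₆` and index-two subgroups (helper27)

* `centralizer_altSix_dihedral`: the centralizer of an involution of `A₆` is dihedral of order 8.
* `centralizer_equiv_of_conj`: centralizers of conjugate elements are isomorphic.
* `exists_index_two_of_sup_oddCore`, `exists_index_two_perm_four`, `exists_index_two_perm_five`:
  subgroups of index two.
* `sl32_equiv_psl27`: `SL₃(2) ≅ PSL₂(7)`.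
-/

set_option autoImplicit false
set_option linter.unusedSectionVars false
set_option linter.style.haveILetI false
set_option linter.unusedVariables false

namespace Cfsg.Agent.H27.D8

open Equiv Equiv.Perm

/-- The double transposition `(0 1)(2 3)`. -/
def dt0 : Perm (Fin 6) := swap 0 1 * swap 2 3

/-- The element `(0 2 1 3)(4 5)` of order four, with square `dt0`. -/
def dtR : Perm (Fin 6) := swap 0 2 * swap 2 1 * swap 1 3 * swap 4 5

/-- The involution `(0 1)(4 5)`. -/
def dtT : Perm (Fin 6) := swap 0 1 * swap 4 5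

set_option maxRecDepth 100000 in
theorem card_filter_dt0 :
    (Finset.univ.filter (fun σ : Perm (Fin 6) => sign σ = 1 ∧ σ * dt0 = dt0 * σ)).card = 8 := by
  decide +kernel

theorem dt0_mem : dt0 ∈ alternatingGroup (Fin 6) := mem_alternatingGroup.2 (by decide)

theorem dtR_mem : dtR ∈ alternatingGroup (Fin 6) := mem_alternatingGroup.2 (by decide)

theorem dtT_mem : dtT ∈ alternatingGroup (Fin 6) := mem_alternatingGroup.2 (by decide)

/-- `dt0` as an element of `A₆`. -/
def dt0' : alternatingGroup (Fin 6) := ⟨dt0, dt0_mem⟩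

theorem mem_cent_dt0 (x : alternatingGroup (Fin 6)) :
    x ∈ Subgroup.centralizer ({dt0'} : Set (alternatingGroup (Fin 6))) ↔
      (x : Perm (Fin 6)) * dt0 = dt0 * x := by
  rw [Subgroup.mem_centralizer_singleton_iff]
  constructor
  · intro h
    exact congrArg Subtype.val h
  · intro h
    apply Subtype.ext
    exact h

theorem card_centralizer_dt0 :
    Nat.card (Subgroup.centralizer ({dt0'} : Set (alternatingGroup (Fin 6)))) = 8 := by
  rw [← card_filter_dt0, ← Fintype.card_subtype, ← Nat.card_eq_fintype_card]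
  apply Nat.card_congr
  exact
    { toFun := fun x => ⟨x.1.1, mem_alternatingGroup.1 x.1.2, (mem_cent_dt0 x.1).1 x.2⟩
      invFun := fun y => ⟨⟨y.1, mem_alternatingGroup.2 y.2.1⟩, (mem_cent_dt0 _).2 y.2.2⟩
      left_inv := fun x => rfl
      right_inv := fun y => rfl }

theorem centralizer_dt0_dihedral :
    Nonempty (↥(Subgroup.centralizer ({dt0'} : Set (alternatingGroup (Fin 6)))) ≃*
      DihedralGroup 4) := by
  haveI : Fact (Nat.Prime 2) := ⟨Nat.prime_two⟩
  have hRc : (⟨dtR, dtR_mem⟩ : alternatingGroup (Fin 6)) ∈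
      Subgroup.centralizer ({dt0'} : Set (alternatingGroup (Fin 6))) := by
    rw [mem_cent_dt0]
    show dtR * dt0 = dt0 * dtR
    decide
  have hTc : (⟨dtT, dtT_mem⟩ : alternatingGroup (Fin 6)) ∈
      Subgroup.centralizer ({dt0'} : Set (alternatingGroup (Fin 6))) := by
    rw [mem_cent_dt0]
    show dtT * dt0 = dt0 * dtT
    decide
  obtain ⟨ρ, hρdef⟩ : ∃ ρ : ↥(Subgroup.centralizer ({dt0'} : Set (alternatingGroup (Fin 6)))),
      ρ = ⟨⟨dtR, dtR_mem⟩, hRc⟩ := ⟨_, rfl⟩
  obtain ⟨τ, hτdef⟩ : ∃ τ : ↥(Subgroup.centralizer ({dt0'} : Set (alternatingGroup (Fin 6)))),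
      τ = ⟨⟨dtT, dtT_mem⟩, hTc⟩ := ⟨_, rfl⟩
  have hρ2 : ¬ ρ ^ 2 ^ 1 = 1 := by
    intro h
    rw [hρdef] at h
    have h1 := congrArg (fun z : ↥(Subgroup.centralizer
      ({dt0'} : Set (alternatingGroup (Fin 6)))) => ((z : alternatingGroup (Fin 6)) : Perm (Fin 6))) h
    have h2 : dtR ^ 2 ^ 1 = 1 := h1
    exact absurd h2 (by decide)
  have hρ4 : ρ ^ 2 ^ (1 + 1) = 1 := by
    rw [hρdef]
    apply Subtype.ext
    apply Subtype.ext
    show dtR ^ 2 ^ (1 + 1) = 1
    decide
  have hρ : orderOf ρ = 4 := orderOf_eq_prime_pow hρ2 hρ4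
  have hτ2 : τ * τ = 1 := by
    rw [hτdef]
    apply Subtype.ext
    apply Subtype.ext
    show dtT * dtT = 1
    decide
  have hconj : τ * ρ * τ⁻¹ = ρ⁻¹ := by
    rw [hτdef, hρdef]
    apply Subtype.ext
    apply Subtype.ext
    show dtT * dtR * dtT⁻¹ = dtR⁻¹
    decide
  have hτ : τ ∉ Subgroup.zpowers ρ := by
    intro h
    obtain ⟨k, hk⟩ := Subgroup.mem_zpowers_iff.1 h
    have hc : τ * ρ = ρ * τ := by
      rw [← hk]
      exact ((Commute.refl ρ).zpow_left k).eq
    have h1 : ρ⁻¹ = ρ := by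
      rw [← hconj, hc]
      group
    apply hρ2
    rw [pow_one, pow_two]
    calc ρ * ρ = ρ⁻¹ * ρ := by rw [h1]
      _ = 1 := inv_mul_cancel ρ
  exact Cfsg.Agent.H3.dihedral_of_gens 4 (by rw [card_centralizer_dt0]) ρ τ hρ hτ hτ2 hconj

/-- Centralizers of conjugate elements are isomorphic. -/
theorem centralizer_equiv_of_conj {G : Type*} [Group G] (a g : G) :
    Nonempty (↥(Subgroup.centralizer ({a} : Set G)) ≃*
      ↥(Subgroup.centralizer ({g * a * g⁻¹} : Set G))) := by
  refine ⟨{ toFun := fun x => ⟨g * x.1 * g⁻¹, ?_⟩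
            invFun := fun y => ⟨g⁻¹ * y.1 * g, ?_⟩
            left_inv := ?_
            right_inv := ?_
            map_mul' := ?_ }⟩
  · rw [Subgroup.mem_centralizer_singleton_iff]
    have h := Subgroup.mem_centralizer_singleton_iff.1 x.2
    calc g * x.1 * g⁻¹ * (g * a * g⁻¹) = g * (x.1 * a) * g⁻¹ := by group
      _ = g * (a * x.1) * g⁻¹ := by rw [h]
      _ = g * a * g⁻¹ * (g * x.1 * g⁻¹) := by group
  · rw [Subgroup.mem_centralizer_singleton_iff]
    have h := Subgroup.mem_centralizer_singleton_iff.1 y.2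
    calc g⁻¹ * y.1 * g * a = g⁻¹ * (y.1 * (g * a * g⁻¹)) * g := by group
      _ = g⁻¹ * (g * a * g⁻¹ * y.1) * g := by rw [h]
      _ = a * (g⁻¹ * y.1 * g) := by group
  · intro x
    apply Subtype.ext
    show g⁻¹ * (g * x.1 * g⁻¹) * g = x.1
    group
  · intro y
    apply Subtype.ext
    show g * (g⁻¹ * y.1 * g) * g⁻¹ = y.1
    group
  · intro x y
    apply Subtype.ext
    show g * (x.1 * y.1) * g⁻¹ = g * x.1 * g⁻¹ * (g * y.1 * g⁻¹)
    group

/-- The centralizer of an involution of `A₆` is dihedral of order `8`. -/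
theorem centralizer_altSix_dihedral (a : alternatingGroup (Fin 6)) (ha : orderOf a = 2) :
    Nonempty (↥(Subgroup.centralizer ({a} : Set (alternatingGroup (Fin 6)))) ≃*
      DihedralGroup 4) := by
  haveI : Fact (Nat.Prime 2) := ⟨Nat.prime_two⟩
  have h0 : orderOf dt0' = 2 := by
    apply orderOf_eq_prime
    · apply Subtype.ext
      show dt0 ^ 2 = 1
      decide
    · intro h
      have h1 := congrArg Subtype.val h
      have h2 : dt0 = 1 := h1
      exact absurd h2 (by decide)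
  obtain ⟨c, hc⟩ := isConj_iff.1 (Cfsg.Agent.H86.altSix_isConj_of_orderOf_two ha h0)
  obtain ⟨φ1⟩ := centralizer_equiv_of_conj a c
  rw [hc] at φ1
  obtain ⟨φ2⟩ := centralizer_dt0_dihedral
  exact ⟨φ1.trans φ2⟩

/-- If `G = C_G(t) O(G)` with `C_G(t)` a `2`-group, then `G` has a subgroup of index two. -/
theorem exists_index_two_of_sup_oddCore {G : Type*} [Group G] [Finite G] (t : G)
    (ht : orderOf t = 2) (hC : IsPGroup 2 ↥(Subgroup.centralizer ({t} : Set G)))
    (h : Subgroup.centralizer ({t} : Set G) ⊔ Cfsg.oddCore G = ⊤) :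
    ∃ H : Subgroup G, H.index = 2 := by
  haveI : Fact (Nat.Prime 2) := ⟨Nat.prime_two⟩
  haveI hn : (Cfsg.oddCore G).Normal := inferInstance
  have hP : IsPGroup 2 (G ⧸ Cfsg.oddCore G) := by
    intro q
    obtain ⟨g, rfl⟩ := QuotientGroup.mk_surjective q
    have hg : g ∈ Subgroup.centralizer ({t} : Set G) ⊔ Cfsg.oddCore G := by
      rw [h]; exact Subgroup.mem_top g
    obtain ⟨y, hy, z, hz, hyz⟩ := Subgroup.mem_sup_of_normal_right.1 hg
    obtain ⟨k, hk⟩ := hC ⟨y, hy⟩
    refine ⟨k, ?_⟩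
    have hk' : y ^ 2 ^ k = 1 := by
      have := congrArg Subtype.val hk
      simpa using this
    have hq : (QuotientGroup.mk g : G ⧸ Cfsg.oddCore G) = QuotientGroup.mk y := by
      rw [← hyz, QuotientGroup.mk_mul, (QuotientGroup.eq_one_iff z).2 hz, mul_one]
    rw [hq, ← QuotientGroup.mk_pow, hk', QuotientGroup.mk_one]
  obtain ⟨n, hn'⟩ := IsPGroup.iff_card.1 hP
  have hn0 : n ≠ 0 := by
    intro h0
    rw [h0, pow_zero] at hn'
    have h1 : (Cfsg.oddCore G).index = 1 := by
      rw [Subgroup.index_eq_card]; exact hn'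
    have h2 : Cfsg.oddCore G = ⊤ := Subgroup.index_eq_one.1 h1
    have h3 : Odd (Nat.card (Cfsg.oddCore G)) := Cfsg.Agent.H27.odd_card_oddCore G
    rw [h2, Subgroup.card_top] at h3
    have h4 : 2 ∣ Nat.card G := by
      rw [← ht]; exact orderOf_dvd_natCard t
    exact (Nat.not_even_iff_odd.2 h3) (even_iff_two_dvd.2 h4)
  obtain ⟨K, hK⟩ := Sylow.exists_subgroup_card_pow_prime (G := G ⧸ Cfsg.oddCore G) 2
    (n := n - 1) (by rw [hn']; exact pow_dvd_pow 2 (Nat.sub_le n 1))
  have hKi : K.index = 2 := by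
    have h1 := K.card_mul_index
    rw [hK, hn'] at h1
    have h2 : 2 ^ n = 2 ^ (n - 1) * 2 := by
      rw [← pow_succ]
      congr 1
      omega
    rw [h2] at h1
    exact Nat.eq_of_mul_eq_mul_left (by positivity) h1
  refine ⟨K.comap (QuotientGroup.mk' (Cfsg.oddCore G)), ?_⟩
  rw [Subgroup.index_comap_of_surjective K (QuotientGroup.mk'_surjective (Cfsg.oddCore G))]
  exact hKi

theorem exists_index_two_perm_four {G : Type*} [Group G] (f : G ≃* Perm (Fin 4)) :
    ∃ H : Subgroup G, H.index = 2 := by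
  refine ⟨(alternatingGroup (Fin 4)).comap f.toMonoidHom, ?_⟩
  rw [Subgroup.index_comap_of_surjective _ f.surjective]
  exact alternatingGroup.index_eq_two

theorem exists_index_two_perm_five {G : Type*} [Group G] (f : G ≃* Perm (Fin 5)) :
    ∃ H : Subgroup G, H.index = 2 := by
  refine ⟨(alternatingGroup (Fin 5)).comap f.toMonoidHom, ?_⟩
  rw [Subgroup.index_comap_of_surjective _ f.surjective]
  exact alternatingGroup.index_eq_two

/-- `SL₃(2) ≅ PSL₂(7)`. -/
theorem sl32_equiv_psl27 :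
    Nonempty (Matrix.SpecialLinearGroup (Fin 3) (ZMod 2) ≃*
      Matrix.ProjectiveSpecialLinearGroup (Fin 2) (ZMod 7)) := by
  haveI : Fact (Nat.Prime 7) := ⟨by norm_num⟩
  haveI : Fact (Nat.Prime 2) := ⟨Nat.prime_two⟩
  obtain ⟨φ2⟩ := Cfsg.Agent.H6.L27.psl27_equiv_psl32 (F := ZMod 7) (K := ZMod 2)
    (ZMod.card 7) (ZMod.card 2)
  have hZ : Subgroup.center (Matrix.SpecialLinearGroup (Fin 3) (ZMod 2)) = ⊥ := by
    apply Subgroup.eq_bot_of_card_eq
    rw [Cfsg.Agent.H6.card_center_sl (F := ZMod 2) (q := 2) (ZMod.card 2) 3 (by norm_num)]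
    rfl
  have φ3 : Matrix.ProjectiveSpecialLinearGroup (Fin 3) (ZMod 2) ≃*
      Matrix.SpecialLinearGroup (Fin 3) (ZMod 2) :=
    (QuotientGroup.quotientMulEquivOfEq hZ).trans QuotientGroup.quotientBot
  exact ⟨(φ2.trans φ3).symm⟩

end Cfsg.Agent.H27.D8
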