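import Mathlib
import Cfsg.Agent.H59.FRDefs

/-!
# S4563-CYC (helper59's team project S4563 + S4564): `cyc : CycStmt`
-/

set_option autoImplicit false

namespace Cfsg.Agent.H27.FR

open Cfsg Cfsg.Agent.Clifford Cfsg.Agent.H59.FR

universe u

theorem cyc : CycStmt.{u} := by
  intro H _ _ K _ S p _ k hk hidx P hP
  classical
  have hcard : Nat.card ↥(S.map (QuotientGroup.mk' K)) = p ^ k := by
    rw [← hk, Subgroup.inf_relIndex_left, ← Subgroup.relIndex_ker, QuotientGroup.ker_mk']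
  have hindex : (S.map (QuotientGroup.mk' K)).index = (S ⊔ K).index := by
    rw [Subgroup.index_map, QuotientGroup.ker_mk',
      MonoidHom.range_eq_top.mpr (QuotientGroup.mk'_surjective K)]
    simp
  have hQp : IsPGroup p ↥(S.map (QuotientGroup.mk' K)) := IsPGroup.of_card hcard
  have hQi : ¬ p ∣ (S.map (QuotientGroup.mk' K)).index := by rw [hindex]; exact hidx
  obtain ⟨Q, hQ⟩ : ∃ Q : Sylow p (H ⧸ K),
      (Q : Subgroup (H ⧸ K)) = S.map (QuotientGroup.mk' K) := ⟨hQp.toSylow hQi, rfl⟩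
  have hQc : IsCyclic ↥Q := by
    have e : ↥P ≃* ↥Q := Sylow.equiv P Q
    exact isCyclic_of_surjective e e.surjective
  obtain ⟨⟨γ, hγQ⟩, hγ⟩ := hQc.exists_generator
  have hγ' : γ ∈ S.map (QuotientGroup.mk' K) := hQ ▸ hγQ
  obtain ⟨g, hgS, hgγ⟩ := Subgroup.mem_map.mp hγ'
  refine ⟨g, hgS, fun s hs => ?_⟩
  have hsQ : (QuotientGroup.mk' K s)⁻¹ ∈ (Q : Subgroup (H ⧸ K)) := by
    rw [hQ]; exact inv_mem (Subgroup.mem_map_of_mem _ hs)
  have h1 := hγ ⟨_, hsQ⟩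
  rw [← mem_powers_iff_mem_zpowers] at h1
  obtain ⟨j, hj⟩ := h1
  refine ⟨j, Subgroup.mem_inf.mpr ⟨mul_mem (pow_mem hgS j) hs, ?_⟩⟩
  have hj' : γ ^ j = (QuotientGroup.mk' K s)⁻¹ := by
    have h2 := congrArg Subtype.val hj
    simpa using h2
  have h3 : QuotientGroup.mk' K (g ^ j * s) = 1 := by
    rw [map_mul, map_pow, hgγ, hj', inv_mul_cancel]
  exact (QuotientGroup.eq_one_iff _).mp h3
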