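import Mathlib
import Cfsg.Agent.H59.FRDefs
import Cfsg.Agent.H4.PaQb

/-!
# S4563-HALL (helper59's team project S4563 + S4564): `hall : HallStmt`

P. Hall (1937): a finite group with a `p`-complement for every prime `p` is solvable.
Uses Burnside's `p^a q^b` theorem (`Cfsg.Agent.H4.isSolvable_of_card_eq_prime_pow_mul_prime_pow`).
-/

set_option autoImplicit false

namespace Cfsg.Agent.H27.FR

open Cfsg Cfsg.Agent.Clifford Cfsg.Agent.H59.FR

universe u

/-- The hypothesis of Hall's theorem. -/
def HasCompl (G : Type u) [Group G] : Prop :=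
  ∀ p : ℕ, p.Prime → ∃ T : Subgroup G, (Nat.card ↥T).Coprime p ∧ ∃ a : ℕ, T.index = p ^ a

/-- For subgroups of coprime indices, `|A : A ⊓ B| = |G : B|`. -/
theorem relIndex_eq_index_of_coprime {G : Type u} [Group G] [Finite G] (A B : Subgroup G)
    (h : Nat.Coprime A.index B.index) : B.relIndex A = B.index := by
  have hA : A.index ≠ 0 := Subgroup.index_ne_zero_of_finite
  have h1 : B.relIndex A * A.index = (A ⊓ B).index := by
    rw [← Subgroup.inf_relIndex_left]; exact Subgroup.relIndex_mul_index inf_le_left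
  have h2 : A.relIndex B * B.index = (A ⊓ B).index := by
    rw [← Subgroup.inf_relIndex_right]; exact Subgroup.relIndex_mul_index inf_le_right
  have h3 : (A ⊓ B).index ≤ A.index * B.index := Subgroup.index_inf_le
  have h4 : B.index ∣ B.relIndex A := by
    have : B.index ∣ B.relIndex A * A.index := by rw [h1, ← h2]; exact dvd_mul_left _ _
    exact (Nat.Coprime.dvd_mul_right h.symm).mp this
  have h5 : B.relIndex A ≤ B.index := by
    have : B.relIndex A * A.index ≤ B.index * A.index := by
      rw [h1, mul_comm B.index]; exact h3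
    exact Nat.le_of_mul_le_mul_right this (Nat.pos_of_ne_zero hA)
  have h6 : B.relIndex A ≠ 0 := by
    intro h0
    rw [h0, zero_mul] at h1
    exact Subgroup.index_ne_zero_of_finite h1.symm
  exact le_antisymm h5 (Nat.le_of_dvd (Nat.pos_of_ne_zero h6) h4)

/-- For subgroups of coprime indices, `G = A B`. -/
theorem exists_mul_of_coprime_index {G : Type u} [Group G] [Finite G] (A B : Subgroup G)
    (h : Nat.Coprime A.index B.index) (g : G) : ∃ a ∈ A, ∃ b ∈ B, g = a * b := by
  have hst : MulAction.stabilizer ↥A ((1 : G) : G ⧸ B) = B.subgroupOf A := by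
    ext a
    rw [MulAction.mem_stabilizer_iff, Subgroup.mem_subgroupOf]
    constructor
    · intro ha
      have h' : (QuotientGroup.mk ((a : G) * 1) : G ⧸ B) = QuotientGroup.mk 1 := ha
      have h2 := inv_mem (QuotientGroup.eq.mp h')
      simpa using h2
    · intro ha
      have h' : (QuotientGroup.mk ((a : G) * 1) : G ⧸ B) = QuotientGroup.mk 1 := by
        rw [QuotientGroup.eq]
        simpa using inv_mem ha
      exact h'
  have hcard : (MulAction.orbit ↥A ((1 : G) : G ⧸ B)).ncard = Nat.card (G ⧸ B) := by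
    rw [← MulAction.index_stabilizer, hst]
    exact relIndex_eq_index_of_coprime A B h
  have huniv : MulAction.orbit ↥A ((1 : G) : G ⧸ B) = Set.univ :=
    Set.eq_of_subset_of_ncard_le (Set.subset_univ _)
      (by rw [Set.ncard_univ, hcard]) Set.finite_univ
  have hg : ((g : G) : G ⧸ B) ∈ MulAction.orbit ↥A ((1 : G) : G ⧸ B) := by
    rw [huniv]; exact Set.mem_univ _
  obtain ⟨a, ha⟩ := hg
  have h' : (QuotientGroup.mk ((a : G) * 1) : G ⧸ B) = QuotientGroup.mk g := ha
  have h2 := QuotientGroup.eq.mp h'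
  refine ⟨a, a.2, (a : G)⁻¹ * g, by simpa using h2, by group⟩

/-- A `p`-complement inherits the hypothesis. -/
theorem hasCompl_of_compl {G : Type u} [Group G] [Finite G] (hG : HasCompl G) (p : ℕ)
    (hp : p.Prime) (T : Subgroup G) (a : ℕ) (hTc : (Nat.card ↥T).Coprime p)
    (hT : T.index = p ^ a) : HasCompl ↥T := by
  intro r hr
  by_cases hrp : r = p
  · subst hrp
    exact ⟨⊤, by rw [Subgroup.card_top]; exact hTc, 0, by simp⟩
  · obtain ⟨R, hRc, c, hRi⟩ := hG r hr
    refine ⟨R.subgroupOf T, ?_, c, ?_⟩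
    · exact Nat.Coprime.coprime_dvd_left
        (Subgroup.card_comap_dvd_of_injective R T.subtype T.subtype_injective) hRc
    · show R.relIndex T = r ^ c
      rw [relIndex_eq_index_of_coprime T R (by
        rw [hT, hRi]
        exact Nat.Coprime.pow _ _ ((Nat.coprime_primes hp hr).mpr (Ne.symm hrp))), hRi]

/-- A quotient inherits the hypothesis. -/
theorem hasCompl_quotient {G : Type u} [Group G] [Finite G] (hG : HasCompl G)
    (N : Subgroup G) [N.Normal] : HasCompl (G ⧸ N) := by
  intro p hp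
  obtain ⟨T, hTc, a, hTi⟩ := hG p hp
  refine ⟨T.map (QuotientGroup.mk' N),
    Nat.Coprime.coprime_dvd_left (Subgroup.card_map_dvd _ _) hTc, ?_⟩
  have h1 : (T.map (QuotientGroup.mk' N)).index ∣ p ^ a := by
    rw [Subgroup.index_map, QuotientGroup.ker_mk',
      MonoidHom.range_eq_top.mpr (QuotientGroup.mk'_surjective N), Subgroup.index_top, mul_one,
      ← hTi]
    exact Subgroup.index_dvd_of_le le_sup_left
  obtain ⟨b, -, hb⟩ := (Nat.dvd_prime_pow hp).mp h1
  exact ⟨b, hb⟩

/-- A nontrivial finite solvable group has a nontrivial normal `q`-subgroup for some prime. -/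
theorem exists_normal_pgroup {H : Type u} [Group H] [Finite H] [Nontrivial H]
    (hs : Group.IsSolvable H) :
    ∃ (q : ℕ) (N : Subgroup H), q.Prime ∧ N.Normal ∧ N ≠ ⊥ ∧ IsPGroup q ↥N := by
  classical
  have hex : ∃ n, derivedSeries H n = ⊥ := hs.solvable
  have hm0 : Nat.find hex ≠ 0 := by
    intro h0
    have h1 := Nat.find_spec hex
    rw [h0, derivedSeries_zero] at h1
    exact top_ne_bot h1
  obtain ⟨k, hk⟩ := Nat.exists_eq_succ_of_ne_zero hm0
  have hAne : derivedSeries H k ≠ ⊥ := Nat.find_min hex (by omega)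
  have hAA : (⁅derivedSeries H k, derivedSeries H k⁆ : Subgroup H) = ⊥ := by
    have h1 := Nat.find_spec hex
    rw [hk] at h1
    exact h1
  have hAn : (derivedSeries H k).Normal := derivedSeries_normal H k
  obtain ⟨A, hA⟩ : ∃ A : Subgroup H, A = derivedSeries H k := ⟨_, rfl⟩
  rw [← hA] at hAne hAA hAn
  have hcomm : ∀ a ∈ A, ∀ b ∈ A, Commute a b := by
    intro a ha b hb
    have h1 := Subgroup.commutator_mem_commutator ha hb
    rw [hAA, Subgroup.mem_bot] at h1
    exact commutatorElement_eq_one_iff_commute.mp h1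
  have hcardA : Nat.card ↥A ≠ 1 := fun h => hAne (Subgroup.card_eq_one.mp h)
  obtain ⟨q, hq, hqd⟩ := Nat.exists_prime_and_dvd hcardA
  haveI : Fact q.Prime := ⟨hq⟩
  obtain ⟨x, hx⟩ := exists_prime_orderOf_dvd_card' q hqd
  let N : Subgroup H :=
    { carrier := {y | y ∈ A ∧ y ^ q = 1}
      one_mem' := ⟨one_mem A, one_pow q⟩
      mul_mem' := by
        rintro a b ⟨ha, ha'⟩ ⟨hb, hb'⟩
        refine ⟨mul_mem ha hb, ?_⟩
        rw [(hcomm a ha b hb).mul_pow, ha', hb', one_mul]
      inv_mem' := by
        rintro a ⟨ha, ha'⟩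
        exact ⟨inv_mem ha, by rw [inv_pow, ha', inv_one]⟩ }
  refine ⟨q, N, hq, ⟨?_⟩, ?_, ?_⟩
  · rintro y ⟨hy, hy'⟩ g
    refine ⟨hAn.conj_mem y hy g, ?_⟩
    rw [conj_pow, hy', mul_one, mul_inv_cancel]
  · intro hN
    have hxN : (x : H) ∈ N := ⟨x.2, by
      have h1 := pow_orderOf_eq_one x
      rw [hx] at h1
      have h2 := congrArg Subtype.val h1
      simpa using h2⟩
    rw [hN, Subgroup.mem_bot] at hxN
    have h1 : x = 1 := Subtype.ext hxN
    rw [h1, orderOf_one] at hx
    exact hq.one_lt.ne hx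
  · rintro ⟨y, hy⟩
    exact ⟨1, Subtype.ext (by simpa using hy.2)⟩

theorem hall_aux : ∀ (n : ℕ) (G : Type u) [Group G] [Finite G], Nat.card G = n →
    HasCompl G → Group.IsSolvable G := by
  intro n
  induction n using Nat.strong_induction_on with
  | _ n ih =>
  intro G _ _ hn hG
  classical
  rcases subsingleton_or_nontrivial G with hsub | hnt
  · infer_instance
  have key : Group.IsSolvable G ∨
      ∃ M : Subgroup G, M.Normal ∧ M ≠ ⊥ ∧ M ≠ ⊤ ∧ Group.IsSolvable ↥M := by
    have hc1 : 1 < Nat.card G := Finite.one_lt_card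
    obtain ⟨p, hp, hpd⟩ := Nat.exists_prime_and_dvd (ne_of_gt hc1)
    obtain ⟨T, hTc, a, hTi⟩ := hG p hp
    have hsolv : ∀ (r : ℕ), r.Prime → r ∣ Nat.card G → ∀ (R : Subgroup G) (c : ℕ),
        (Nat.card ↥R).Coprime r → R.index = r ^ c → R ≠ ⊤ ∧ Group.IsSolvable ↥R := by
      intro r hr hrd R c hRc hRi
      have hne : R ≠ ⊤ := by
        rintro rfl
        rw [Subgroup.card_top] at hRc
        exact hr.one_lt.ne' (hRc.symm.eq_one_of_dvd hrd)
      refine ⟨hne, ih (Nat.card ↥R) ?_ ↥R rfl (hasCompl_of_compl hG r hr R c hRc hRi)⟩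
      rw [← hn, ← Subgroup.card_mul_index R]
      have h1 : R.index ≠ 1 := fun h => hne (Subgroup.index_eq_one.mp h)
      have h0 : R.index ≠ 0 := Subgroup.index_ne_zero_of_finite
      exact lt_mul_of_one_lt_right Nat.card_pos (by omega)
    obtain ⟨hTne, hTs⟩ := hsolv p hp hpd T a hTc hTi
    by_cases hTbot : T = ⊥
    · left
      have hcard : Nat.card G = p ^ a := by
        rw [← Subgroup.card_mul_index T, hTi, hTbot, Subgroup.card_bot, one_mul]
      haveI : Fact p.Prime := ⟨hp⟩
      have hpg : IsPGroup p G := IsPGroup.of_card hcard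
      haveI := hpg.isNilpotent
      infer_instance
    · haveI : Nontrivial ↥T := (Subgroup.nontrivial_iff_ne_bot T).mpr hTbot
      obtain ⟨q, N', hq, hN'n, hN'ne, hN'p⟩ := exists_normal_pgroup hTs
      haveI : Fact q.Prime := ⟨hq⟩
      have hqT : q ∣ Nat.card ↥T := by
        obtain ⟨e, he⟩ := hN'p.exists_card_eq
        have he0 : e ≠ 0 := by
          rintro rfl
          rw [pow_zero] at he
          exact hN'ne (Subgroup.card_eq_one.mp he)
        have h1 : q ∣ Nat.card ↥N' := by rw [he]; exact dvd_pow_self q he0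
        exact h1.trans (Subgroup.card_subgroup_dvd_card N')
      have hqp : q ≠ p := by
        rintro rfl
        exact hq.one_lt.ne' (hTc.symm.eq_one_of_dvd hqT)
      by_cases h3 : ∃ r : ℕ, r.Prime ∧ r ∣ Nat.card G ∧ r ≠ p ∧ r ≠ q
      · right
        obtain ⟨r, hr, hrd, hrp, hrq⟩ := h3
        obtain ⟨R, hRc, c, hRi⟩ := hG r hr
        obtain ⟨hRne, hRs⟩ := hsolv r hr hrd R c hRc hRi
        obtain ⟨N, hNdef⟩ : ∃ N : Subgroup G, N = N'.map T.subtype := ⟨_, rfl⟩
        have hNnorm : ∀ t ∈ T, ∀ x ∈ N, t * x * t⁻¹ ∈ N := by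
          intro t ht x hx
          rw [hNdef] at hx ⊢
          obtain ⟨x', hx', rfl⟩ := Subgroup.mem_map.mp hx
          exact Subgroup.mem_map.mpr
            ⟨⟨t, ht⟩ * x' * ⟨t, ht⟩⁻¹, hN'n.conj_mem x' hx' ⟨t, ht⟩, rfl⟩
        have hNp : IsPGroup q ↥N := by rw [hNdef]; exact hN'p.map T.subtype
        have hNne : N ≠ ⊥ := by
          rw [hNdef]; intro h
          exact hN'ne ((Subgroup.map_eq_bot_iff_of_injective N' T.subtype_injective).mp h)
        have hfix : (MulAction.fixedPoints ↥N (G ⧸ R)).Nonempty := by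
          apply hNp.nonempty_fixed_point_of_prime_not_dvd_card
          show ¬ q ∣ R.index
          rw [hRi]; intro h
          exact hrq.symm ((Nat.prime_dvd_prime_iff_eq hq hr).mp (hq.dvd_of_dvd_pow h))
        obtain ⟨y, hy⟩ := hfix
        obtain ⟨g, rfl⟩ := QuotientGroup.mk_surjective y
        have h1 : ∀ x ∈ N, g⁻¹ * x * g ∈ R := by
          intro x hx
          have h' : (QuotientGroup.mk (x * g) : G ⧸ R) = QuotientGroup.mk g := hy ⟨x, hx⟩
          have h'' := inv_mem (QuotientGroup.eq.mp h')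
          simpa [mul_assoc] using h''
        have hcop : Nat.Coprime T.index R.index := by
          rw [hTi, hRi]
          exact Nat.Coprime.pow _ _ ((Nat.coprime_primes hp hr).mpr hrp.symm)
        obtain ⟨t, ht, ρ, hρ, rfl⟩ := exists_mul_of_coprime_index T R hcop g
        have hNR : N ≤ R := by
          intro x hx
          have hx' : t * x * t⁻¹ ∈ N := hNnorm t ht x hx
          have h2 := h1 _ hx'
          have h3 : (t * ρ)⁻¹ * (t * x * t⁻¹) * (t * ρ) = ρ⁻¹ * x * ρ := by group
          rw [h3] at h2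
          have h4 := mul_mem (mul_mem hρ h2) (inv_mem hρ)
          have h5 : ρ * (ρ⁻¹ * x * ρ) * ρ⁻¹ = x := by group
          rwa [h5] at h4
        have hconj : ∀ g' : G, ∀ x ∈ N, g' * x * g'⁻¹ ∈ R := by
          intro g' x hx
          obtain ⟨ρ', hρ', t', ht', rfl⟩ := exists_mul_of_coprime_index R T hcop.symm g'
          have hx' : t' * x * t'⁻¹ ∈ N := hNnorm t' ht' x hx
          have h2 : (ρ' * t') * x * (ρ' * t')⁻¹ = ρ' * (t' * x * t'⁻¹) * ρ'⁻¹ := by group
          rw [h2]
          exact mul_mem (mul_mem hρ' (hNR hx')) (inv_mem hρ')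
        have hle : Subgroup.normalClosure (N : Set G) ≤ R := by
          unfold Subgroup.normalClosure
          rw [Subgroup.closure_le]
          intro z hz
          obtain ⟨x, hx, hz'⟩ := Group.mem_conjugatesOfSet_iff.mp hz
          obtain ⟨g', rfl⟩ := isConj_iff.mp hz'
          exact hconj g' x hx
        refine ⟨Subgroup.normalClosure (N : Set G), Subgroup.normalClosure_normal, ?_, ?_, ?_⟩
        · intro h
          exact hNne (le_bot_iff.mp (h ▸ Subgroup.le_normalClosure))
        · intro h; exact hRne (top_le_iff.mp (h ▸ hle))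
        · haveI := hRs
          exact Group.isSolvable_of_isSolvable_injective (Subgroup.inclusion_injective hle)
      · left
        have h3' : ∀ d : ℕ, d.Prime → d ∣ Nat.card G → d ≠ p → d = q := by
          intro d hd hdG hdp
          by_contra hdq
          exact h3 ⟨d, hd, hdG, hdp, hdq⟩
        obtain ⟨b, hTq⟩ : ∃ b : ℕ, Nat.card ↥T = q ^ b := by
          refine ⟨_, Nat.eq_prime_pow_of_unique_prime_dvd Nat.card_pos.ne' ?_⟩
          intro d hd hdT
          have hdp : d ≠ p := by
            rintro rfl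
            exact hd.one_lt.ne' (hTc.symm.eq_one_of_dvd hdT)
          exact h3' d hd (hdT.trans (Subgroup.card_subgroup_dvd_card T)) hdp
        exact Cfsg.Agent.H4.isSolvable_of_card_eq_prime_pow_mul_prime_pow q p b a hq hp
          (by rw [← Subgroup.card_mul_index T, hTi, ← hTq])
  rcases key with h | ⟨M, hMn, hMbot, hMtop, hMs⟩
  · exact h
  · haveI := hMn
    have hQ : Group.IsSolvable (G ⧸ M) := by
      refine ih (Nat.card (G ⧸ M)) ?_ (G ⧸ M) rfl (hasCompl_quotient hG M)
      rw [← hn, ← Subgroup.card_mul_index M]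
      have h1 : 1 < Nat.card ↥M := (Subgroup.one_lt_card_iff_ne_bot M).mpr hMbot
      have h0 : M.index ≠ 0 := Subgroup.index_ne_zero_of_finite
      exact lt_mul_of_one_lt_left (Nat.pos_of_ne_zero h0) h1
    haveI := hMs
    haveI := hQ
    exact Group.isSolvable_of_ker_le_range M.subtype (QuotientGroup.mk' M) (by simp)

/-- S4563-HALL. -/
theorem hall : HallStmt.{u} := fun G _ _ h => hall_aux _ G rfl h

end Cfsg.Agent.H27.FR
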