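import Mathlib
import Cfsg.Agent.H59.GagDefs

/-!
# S4840-PFIX and S4840-NOP (helper59's team project S4840)
-/

set_option autoImplicit false

namespace Cfsg.Agent.H27.Gag

open Cfsg Cfsg.Agent.H59.Gag

universe u

/-- S4840-PFIX: a `p`-subgroup fixes a nonzero vector. -/
theorem pfix : PFixStmt.{u} := by
  intro X _ _ p _ V _ _ _ _ ρ Q hQ
  classical
  letI : MulAction ↥Q V := MulAction.compHom V (ρ.comp Q.subtype)
  have hsmul : ∀ (g : ↥Q) (v : V), g • v = ρ (g : X) v := fun g v => rfl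
  obtain ⟨v₀, hv₀⟩ := exists_ne (0 : V)
  have hp : p ∣ Nat.card V := by
    have h1 : p • v₀ = 0 := by
      rw [← Nat.cast_smul_eq_nsmul (ZMod p), ZMod.natCast_self, zero_smul]
    have h2 : addOrderOf v₀ = p := addOrderOf_eq_prime h1 hv₀
    rw [← h2]; exact addOrderOf_dvd_natCard v₀
  have h0 : (0 : V) ∈ MulAction.fixedPoints ↥Q V := by
    intro g; rw [hsmul, map_zero]
  obtain ⟨b, hb, hne⟩ := hQ.exists_fixed_point_of_prime_dvd_card_of_fixed_point V hp h0
  exact ⟨b, fun h => hne h.symm, fun g hg => hb ⟨g, hg⟩⟩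

/-- S4840-NOP: `O_p(X) = 1`. -/
theorem nop_of (hpfix : PFixStmt.{u}) : NopStmt.{u} := by
  intro X _ _ p _ V _ _ _ _ ρ hL Q hQn hQp
  obtain ⟨v, hv, hfix⟩ := hpfix X p V ρ Q hQp
  rw [eq_bot_iff]
  intro q hq
  rw [Subgroup.mem_bot]
  apply hL.inj
  rw [map_one]
  ext w
  by_cases hw : w = 0
  · rw [hw, map_zero, map_zero]
  · obtain ⟨g, hg⟩ := hL.trans v w hv hw
    have h1 : g⁻¹ * q * g ∈ Q := by
      have h := hQn.conj_mem q hq g⁻¹
      simpa using h
    have h2 := hfix _ h1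
    rw [map_mul, map_mul] at h2
    have h3 : ρ q (ρ g v) = ρ g v := by
      have h4 := congrArg (ρ g) h2
      rw [LinearEquiv.mul_apply, LinearEquiv.mul_apply] at h4
      have h5 : ρ g (ρ g⁻¹ (ρ q (ρ g v))) = ρ q (ρ g v) := by
        rw [← LinearEquiv.mul_apply, ← map_mul, mul_inv_cancel, map_one]; rfl
      rw [h5] at h4; exact h4
    rw [hg] at h3
    rw [h3]; rfl

end Cfsg.Agent.H27.Gag
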