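import Mathlib
import Cfsg.Agent.H91.JRDefs

/-!
# helper27: S3206 piece P2B (`p2b : P2bStmt`, the averaging argument) for helper91
-/

set_option autoImplicit false

namespace Cfsg.Agent.H27.JR

open Subgroup

universe u

/-- averaging: a cocycle of an odd-order group with values in an elementary abelian 2-group is a
coboundary -/
theorem avg_aux {A : Type*} [Group A] (hcomm : ∀ x y : A, x * y = y * x)
    (hexp : ∀ x : A, x * x = 1) {K : Type*} [Group K] [Finite K] (hodd : Odd (Nat.card K))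
    (c : K → A →* A) (f : K → A) (hf : ∀ k₁ k₂, f (k₁ * k₂) = c k₂ (f k₁) * f k₂) :
    ∃ a : A, ∀ k, f k = c k a * a := by
  have := Fintype.ofFinite K
  let _ : CommGroup A := { (inferInstance : Group A) with mul_comm := hcomm }
  refine ⟨∏ k, f k, fun k₂ => ?_⟩
  have h1 : ∏ k, f k = ∏ k, f (k * k₂) := (Equiv.prod_comp (Equiv.mulRight k₂) f).symm
  have h2 : ∏ k, f (k * k₂) = c k₂ (∏ k, f k) * f k₂ := by
    simp only [hf]
    rw [Finset.prod_mul_distrib, Finset.prod_const, Finset.card_univ, map_prod]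
    congr 1
    rw [Nat.card_eq_fintype_card] at hodd
    obtain ⟨m, hm⟩ := hodd
    rw [hm, pow_succ, pow_mul, pow_two, hexp, one_pow, one_mul]
  have h3 : ∏ k, f k = c k₂ (∏ k, f k) * f k₂ := h1.trans h2
  have hinv : ∀ x : A, x⁻¹ = x := fun x => inv_eq_of_mul_eq_one_left (hexp x)
  calc f k₂ = (c k₂ (∏ k, f k))⁻¹ * (c k₂ (∏ k, f k) * f k₂) := by rw [inv_mul_cancel_left]
    _ = (c k₂ (∏ k, f k))⁻¹ * ∏ k, f k := by rw [← h3]
    _ = c k₂ (∏ k, f k) * ∏ k, f k := by rw [hinv]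

/-- Schur–Zassenhaus complement of a Sylow subgroup in its normalizer -/
theorem exists_compl_normalizer {G : Type*} [Group G] [Finite G] {p : ℕ} [Fact p.Prime]
    (P : Sylow p G) :
    ∃ K : Subgroup G, K ≤ normalizer ((P : Subgroup G) : Set G) ∧ (Nat.card K).Coprime p ∧
      ∀ m ∈ normalizer ((P : Subgroup G) : Set G), ∃ s ∈ (P : Subgroup G), ∃ k ∈ K, m = s * k := by
  have hp : p.Prime := Fact.out
  obtain ⟨N, hN⟩ : ∃ N : Subgroup G, N = normalizer ((P : Subgroup G) : Set G) := ⟨_, rfl⟩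
  rw [← hN]
  have hPN : (P : Subgroup G) ≤ N := by rw [hN]; exact le_normalizer
  have hnormal : ((P : Subgroup G).subgroupOf N).Normal := by
    rw [hN]; infer_instance
  have hnd : ¬ p ∣ ((P : Subgroup G).subgroupOf N).index := by
    intro hdvd
    have h2 : (P : Subgroup G).relIndex N * N.index = (P : Subgroup G).index :=
      Subgroup.relIndex_mul_index hPN
    have h3 : p ∣ (P : Subgroup G).relIndex N := hdvd
    exact P.not_dvd_index (dvd_trans h3 (Dvd.intro _ h2))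
  obtain ⟨n, hn⟩ := P.isPGroup'.exists_card_eq
  have hcop : Nat.Coprime (Nat.card ((P : Subgroup G).subgroupOf N))
      ((P : Subgroup G).subgroupOf N).index := by
    have h1 : Nat.card ((P : Subgroup G).subgroupOf N) = Nat.card (P : Subgroup G) :=
      Nat.card_congr (Subgroup.subgroupOfEquivOfLe hPN).toEquiv
    rw [h1, hn]
    exact Nat.Coprime.pow_left n ((Nat.Prime.coprime_iff_not_dvd hp).2 hnd)
  obtain ⟨H, hH⟩ := Subgroup.exists_right_complement'_of_coprime hcop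
  refine ⟨H.map N.subtype, ?_, ?_, ?_⟩
  · rintro _ ⟨h, _, rfl⟩; exact h.2
  · rw [Subgroup.card_map_of_injective N.subtype_injective]
    have h1 : Nat.card H = ((P : Subgroup G).subgroupOf N).index :=
      (hH.symm.index_eq_card).symm
    rw [h1]
    exact ((Nat.Prime.coprime_iff_not_dvd hp).2 hnd).symm
  · intro m hm
    have hbij := Subgroup.isComplement'_def.1 hH
    obtain ⟨⟨a, b⟩, hab⟩ := hbij.2 ⟨m, hm⟩
    refine ⟨a.1.1, Subgroup.mem_subgroupOf.1 a.2, b.1.1, ⟨b.1, b.2, rfl⟩, ?_⟩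
    have h1 := congrArg Subtype.val hab
    exact h1.symm

/-- **S3206-P2B** -/
theorem p2b : Cfsg.Agent.H91.JR.P2bStmt.{u} := by
  intro G _ _ S hexp ψ k hψk hψC
  have hinvS : ∀ x ∈ (S : Subgroup G), x⁻¹ = x :=
    fun x hx => inv_eq_of_mul_eq_one_left (hexp x hx)
  -- `S` is abelian
  have hSc : ∀ x ∈ (S : Subgroup G), ∀ y ∈ (S : Subgroup G), x * y = y * x := by
    intro x hx y hy
    calc x * y = (x * y)⁻¹ := (hinvS _ (mul_mem hx hy)).symm
      _ = y⁻¹ * x⁻¹ := mul_inv_rev x y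
      _ = y * x := by rw [hinvS x hx, hinvS y hy]
  have hψS : ∀ s ∈ (S : Subgroup G), ψ s = s :=
    fun s hs => hψC s (fun s' hs' => hSc s hs s' hs')
  have hmemN : ∀ n : G, n ∈ normalizer ((S : Subgroup G) : Set G) ↔
      (∀ s : G, s ∈ S ↔ n * s * n⁻¹ ∈ S) := fun n => Subgroup.mem_normalizer_iff
  -- `σ(n) = n⁻¹ ψ(n) ∈ S`
  have hσ : ∀ n : G, (∀ s : G, s ∈ S ↔ n * s * n⁻¹ ∈ S) → n⁻¹ * ψ n ∈ (S : Subgroup G) := by
    intro n hn
    have hcent : ∀ s ∈ (S : Subgroup G), (n⁻¹ * ψ n) * s = s * (n⁻¹ * ψ n) := by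
      intro s hs
      have h1 : ψ (n * s * n⁻¹) = n * s * n⁻¹ := hψS _ ((hn s).1 hs)
      rw [map_mul, map_mul, map_inv, hψS s hs] at h1
      calc n⁻¹ * ψ n * s = n⁻¹ * (ψ n * s * (ψ n)⁻¹) * ψ n := by group
        _ = n⁻¹ * (n * s * n⁻¹) * ψ n := by rw [h1]
        _ = s * (n⁻¹ * ψ n) := by group
    have hfix : ψ (n⁻¹ * ψ n) = n⁻¹ * ψ n := hψC _ hcent
    have hpow : ∀ j : ℕ, (ψ ^ j) n = n * (n⁻¹ * ψ n) ^ j := by
      intro j
      induction j with
      | zero => simp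
      | succ j ih =>
        rw [pow_succ' ψ j, MulAut.mul_apply, ih, map_mul, map_pow, hfix,
          pow_succ' (n⁻¹ * ψ n) j, mul_assoc n⁻¹, mul_inv_cancel_left]
    have h2 := hpow (2 ^ k)
    rw [hψk, MulAut.one_apply] at h2
    have h3 : (n⁻¹ * ψ n) ^ 2 ^ k = 1 := by
      have h4 : n * 1 = n * (n⁻¹ * ψ n) ^ 2 ^ k := by rw [mul_one]; exact h2
      exact (mul_left_cancel h4).symm
    have hpg : IsPGroup 2 ↥(Subgroup.zpowers (n⁻¹ * ψ n)) := by
      rintro ⟨g, hg⟩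
      obtain ⟨i, rfl⟩ := Subgroup.mem_zpowers_iff.1 hg
      refine ⟨k, Subtype.ext ?_⟩
      show ((n⁻¹ * ψ n) ^ i) ^ 2 ^ k = 1
      rw [← zpow_natCast, ← zpow_mul, mul_comm, zpow_mul, zpow_natCast, h3, one_zpow]
    have h4 := hpg.inf_normalizer_sylow S
    have h9 : n⁻¹ * ψ n ∈ normalizer ((S : Subgroup G) : Set G) := by
      refine Subgroup.mem_normalizer_iff.2 (fun s => ?_)
      constructor
      · intro hs
        have h6 : (n⁻¹ * ψ n) * s * (n⁻¹ * ψ n)⁻¹ = s := by rw [hcent s hs]; group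
        rw [h6]; exact hs
      · intro hs
        have h6 := hcent _ hs
        have h7 : s = (n⁻¹ * ψ n) * s * (n⁻¹ * ψ n)⁻¹ := by
          have h8 : (n⁻¹ * ψ n) * ((n⁻¹ * ψ n) * s * (n⁻¹ * ψ n)⁻¹) = (n⁻¹ * ψ n) * s := by
            rw [h6]; group
          exact (mul_left_cancel h8).symm
        rw [h7]; exact hs
    have h5 : n⁻¹ * ψ n ∈ Subgroup.zpowers (n⁻¹ * ψ n) ⊓ normalizer (S : Set G) :=
      ⟨Subgroup.mem_zpowers _, h9⟩
    rw [h4] at h5
    exact h5.2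
  obtain ⟨K, hKN, hKcop, hdec⟩ := exists_compl_normalizer S
  have hKodd : Odd (Nat.card K) := Nat.Coprime.odd_of_right hKcop
  have hconj : ∀ k ∈ K, ∀ s ∈ (S : Subgroup G), k⁻¹ * s * k ∈ (S : Subgroup G) := by
    intro k hk s hs
    have h1 := (hmemN k).1 (hKN hk) (k⁻¹ * s * k)
    apply h1.2
    have h2 : k * (k⁻¹ * s * k) * k⁻¹ = s := by group
    rw [h2]; exact hs
  let c : ↥K → ↥(S : Subgroup G) →* ↥(S : Subgroup G) := fun k =>
    { toFun := fun s => ⟨(k : G)⁻¹ * (s : G) * (k : G), hconj k k.2 s s.2⟩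
      map_one' := Subtype.ext (by simp)
      map_mul' := fun s₁ s₂ => Subtype.ext (by simp [mul_assoc]) }
  let f : ↥K → ↥(S : Subgroup G) := fun k =>
    ⟨(k : G)⁻¹ * ψ (k : G), hσ k ((hmemN k).1 (hKN k.2))⟩
  obtain ⟨a, ha⟩ := avg_aux (A := ↥(S : Subgroup G))
    (fun x y => Subtype.ext (hSc x x.2 y y.2)) (fun x => Subtype.ext (hexp x x.2)) hKodd c f (by
      intro k₁ k₂
      apply Subtype.ext
      show ((k₁ * k₂ : ↥K) : G)⁻¹ * ψ ((k₁ * k₂ : ↥K) : G)
        = (k₂ : G)⁻¹ * ((k₁ : G)⁻¹ * ψ (k₁ : G)) * (k₂ : G) * ((k₂ : G)⁻¹ * ψ (k₂ : G))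
      rw [Subgroup.coe_mul, map_mul]
      group)
  refine ⟨a, a.2, fun n hn => ?_⟩
  have hainv : (a : G)⁻¹ = a := hinvS a a.2
  have hK : ∀ k ∈ K, ψ k = a * k * (a : G)⁻¹ := by
    intro k hk
    have h1 := congrArg Subtype.val (ha ⟨k, hk⟩)
    have h2 : k⁻¹ * ψ k = k⁻¹ * (a : G) * k * (a : G) := h1
    rw [hainv]
    calc ψ k = k * (k⁻¹ * ψ k) := by group
      _ = k * (k⁻¹ * (a : G) * k * (a : G)) := by rw [h2]
      _ = a * k * a := by group
  obtain ⟨s, hs, k', hk', rfl⟩ := hdec n ((hmemN n).2 hn)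
  rw [map_mul, hψS s hs, hK k' hk']
  have h1 : s * (a : G) = a * s := hSc s hs a a.2
  calc s * ((a : G) * k' * (a : G)⁻¹) = (s * a) * k' * (a : G)⁻¹ := by group
    _ = a * s * k' * (a : G)⁻¹ := by rw [h1]
    _ = a * (s * k') * (a : G)⁻¹ := by group

end Cfsg.Agent.H27.JR
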