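import Mathlib
import Cfsg.Agent.H91.JRDefs

/-!
# helper27: S3206 piece P2C (`p2c`) for helper91
-/

set_option autoImplicit false

namespace Cfsg.Agent.H27.JR

open Subgroup

universe u

/-- in a finite group, an element conjugating a subgroup into itself normalizes it -/
theorem conj_mem_iff_of_forall {G : Type*} [Group G] [Finite G] (S : Subgroup G) (c : G)
    (h : ∀ s ∈ S, c * s * c⁻¹ ∈ S) : ∀ s : G, s ∈ S ↔ c * s * c⁻¹ ∈ S := by
  intro s
  refine ⟨h s, fun hs => ?_⟩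
  let f : ↥S → ↥S := fun x => ⟨c * x * c⁻¹, h x x.2⟩
  have hinj : Function.Injective f := by
    intro x y hxy
    have h1 : c * (x : G) * c⁻¹ = c * (y : G) * c⁻¹ := congrArg Subtype.val hxy
    apply Subtype.ext
    exact mul_left_cancel (mul_right_cancel h1)
  obtain ⟨x, hx⟩ := (Finite.surjective_of_injective hinj) ⟨c * s * c⁻¹, hs⟩
  have h1 : c * (x : G) * c⁻¹ = c * s * c⁻¹ := congrArg Subtype.val hx
  have h2 : (x : G) = s := mul_left_cancel (mul_right_cancel h1)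
  rw [← h2]; exact x.2

/-- **S3206-P2C** -/
theorem p2c (h1 : Cfsg.Agent.H91.JR.Str1Stmt.{u}) (hf : Cfsg.Agent.H91.JR.FusStmt.{u})
    (ha : Cfsg.Agent.H91.JR.P2aStmt.{u}) (hb : Cfsg.Agent.H91.JR.P2bStmt.{u}) :
    Cfsg.Agent.H91.JR.P2cStmt.{u} := by
  intro G _ _ _ t E N hset hab hco S htS φ k hφk hφS
  obtain ⟨hexp, hcard, ⟨V, hVS⟩, hdec⟩ := h1 t E N hset hab S htS
  obtain ⟨w, hwS, hw⟩ := ha t E N hset hab S htS φ k hφk hφS
  have hinvS : ∀ x ∈ (S : Subgroup G), x⁻¹ = x :=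
    fun x hx => inv_eq_of_mul_eq_one_left (hexp x hx)
  have hwinv : w⁻¹ = w := hinvS w hwS
  have hww : w * w = 1 := hexp w hwS
  have hCt : ∀ g : G, g ∈ centralizer ({t} : Set G) ↔ g * t = t * g :=
    fun g => Subgroup.mem_centralizer_singleton_iff
  -- `ψ = conj(w) ∘ φ`
  obtain ⟨ψ, hψdef⟩ : ∃ ψ : G ≃* G, ψ = MulAut.conj w * φ := ⟨_, rfl⟩
  have hψapp : ∀ x, ψ x = w * φ x * w⁻¹ := by
    intro x; rw [hψdef, MulAut.mul_apply, MulAut.conj_apply]
  have hψC : ∀ g : G, g * t = t * g → ψ g = g := by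
    intro g hg
    rw [hψapp, hw g hg, hwinv]
    calc w * (w * g * w) * w = (w * w) * g * (w * w) := by group
      _ = g := by rw [hww, one_mul, mul_one]
  have hcomm : Commute (MulAut.conj w) φ := by
    show MulAut.conj w * φ = φ * MulAut.conj w
    refine MulEquiv.ext (fun x => ?_)
    rw [MulAut.mul_apply, MulAut.mul_apply, MulAut.conj_apply, MulAut.conj_apply, map_mul,
      map_mul, map_inv, hφS w hwS]
  have hψpow : ψ ^ (2 ^ (k + 1)) = 1 := by
    have hc2 : (MulAut.conj w) ^ 2 = 1 := by rw [← map_pow, pow_two, hww, map_one]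
    have e1 : (MulAut.conj w) ^ (2 ^ (k + 1)) = 1 := by rw [pow_succ, pow_mul', hc2, one_pow]
    have e2 : φ ^ (2 ^ (k + 1)) = 1 := by rw [pow_succ, pow_mul, hφk, one_pow]
    rw [hψdef, hcomm.mul_pow, e1, e2, mul_one]
  obtain ⟨a, haS, haN⟩ := hb S hexp ψ (k + 1) hψpow (fun g hg => hψC g (hg t htS))
  -- the element `c`
  obtain ⟨hsimpN, hpslV⟩ := hset.psl
  obtain ⟨⟨hV4, hVexp⟩, ⟨c, hcV, hcfix⟩, _⟩ := hpslV V
  have hcE : (c : G) ∈ E := hset.N_le c.2
  have hct : (c : G) * t = t * c := hset.comm c hcE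
  have hctv : ∀ v : G, (c : G) * (t * v) * (c : G)⁻¹ = t * ((c : G) * v * (c : G)⁻¹) := by
    intro v
    calc (c : G) * (t * v) * (c : G)⁻¹ = ((c : G) * t) * v * (c : G)⁻¹ := by group
      _ = (t * c) * v * (c : G)⁻¹ := by rw [hct]
      _ = t * ((c : G) * v * (c : G)⁻¹) := by group
  have hcS : ∀ s ∈ (S : Subgroup G), (c : G) * s * (c : G)⁻¹ ∈ (S : Subgroup G) := by
    intro s hs
    obtain ⟨v, hvN, hvS, hv | hv⟩ := hdec s hs
    · have h2 : (⟨v, hvN⟩ : ↥N) ∈ V := (hVS ⟨v, hvN⟩).2 hvS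
      have h3 := hcV ⟨v, hvN⟩ h2
      have h4 : (c : G) * v * (c : G)⁻¹ ∈ (S : Subgroup G) := (hVS _).1 h3
      rw [hv]
      exact h4
    · have h2 : (⟨v, hvN⟩ : ↥N) ∈ V := (hVS ⟨v, hvN⟩).2 hvS
      have h3 := hcV ⟨v, hvN⟩ h2
      have h4 : (c : G) * v * (c : G)⁻¹ ∈ (S : Subgroup G) := (hVS _).1 h3
      rw [hv, hctv]
      exact mul_mem htS h4
  have hcnorm := conj_mem_iff_of_forall (S : Subgroup G) (c : G) hcS
  have h6 : ψ (c : G) = c := hψC c hct
  have h7 : ψ (c : G) = a * c * a⁻¹ := haN c hcnorm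
  have hca : (c : G) * a * (c : G)⁻¹ = a := by
    have h8 : a * (c : G) * a⁻¹ = c := h7.symm.trans h6
    calc (c : G) * a * (c : G)⁻¹ = (a * (c : G) * a⁻¹) * a * (c : G)⁻¹ := by rw [h8]
      _ = a := by group
  have hat : a = 1 ∨ a = t := by
    obtain ⟨v, hvN, hvS, hv | hv⟩ := hdec a haS
    · left
      have h2 : (⟨v, hvN⟩ : ↥N) ∈ V := (hVS ⟨v, hvN⟩).2 hvS
      have h3 : c * ⟨v, hvN⟩ * c⁻¹ = (⟨v, hvN⟩ : ↥N) := by
        apply Subtype.ext
        show (c : G) * v * (c : G)⁻¹ = v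
        rw [← hv]; exact hca
      have h4 := hcfix ⟨v, hvN⟩ h2 h3
      rw [hv]
      exact congrArg Subtype.val h4
    · right
      have h2 : (⟨v, hvN⟩ : ↥N) ∈ V := (hVS ⟨v, hvN⟩).2 hvS
      have h3 : c * ⟨v, hvN⟩ * c⁻¹ = (⟨v, hvN⟩ : ↥N) := by
        apply Subtype.ext
        show (c : G) * v * (c : G)⁻¹ = v
        have h5 : (c : G) * (t * v) * (c : G)⁻¹ = t * v := by rw [← hv]; exact hca
        rw [hctv] at h5
        exact mul_left_cancel h5
      have h4 := hcfix ⟨v, hvN⟩ h2 h3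
      have h5 : v = 1 := congrArg Subtype.val h4
      rw [hv, h5, mul_one]
  have haa : a * a = 1 := hexp a haS
  have hainv : a⁻¹ = a := hinvS a haS
  have haC : ∀ g : G, g * t = t * g → a * g = g * a := by
    intro g hg
    rcases hat with h | h
    · rw [h, one_mul, mul_one]
    · rw [h]; exact hg.symm
  -- `χ = conj(a) ∘ ψ`
  obtain ⟨χ, hχdef⟩ : ∃ χ : G ≃* G, χ = MulAut.conj a * ψ := ⟨_, rfl⟩
  have hχapp : ∀ x, χ x = a * ψ x * a⁻¹ := by
    intro x; rw [hχdef, MulAut.mul_apply, MulAut.conj_apply]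
  have hχC : ∀ g : G, g * t = t * g → χ g = g := by
    intro g hg
    rw [hχapp, hψC g hg, haC g hg, mul_inv_cancel_right]
  have hχN : ∀ n : G, (∀ s : G, s ∈ S ↔ n * s * n⁻¹ ∈ S) → χ n = n := by
    intro n hn
    rw [hχapp, haN n hn, hainv]
    calc a * (a * n * a) * a = (a * a) * n * (a * a) := by group
      _ = n := by rw [haa, one_mul, mul_one]
  -- the fixed-point subgroup of `χ`
  let F : Subgroup G :=
    { carrier := {x | χ x = x}
      mul_mem' := fun {x y} hx hy => by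
        have hx' : χ x = x := hx
        have hy' : χ y = y := hy
        show χ (x * y) = x * y
        rw [map_mul, hx', hy']
      one_mem' := map_one χ
      inv_mem' := fun {x} hx => by
        have hx' : χ x = x := hx
        show χ x⁻¹ = x⁻¹
        rw [map_inv, hx'] }
  have hFmem : ∀ x, x ∈ F ↔ χ x = x := fun x => Iff.rfl
  have hCF : centralizer ({t} : Set G) ≤ F :=
    fun g hg => (hFmem g).2 (hχC g ((hCt g).1 hg))
  -- an element of `N_G(S)` outside `C(t)`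
  have hVne : (V : Subgroup ↥N) ≠ ⊥ := by
    intro h
    rw [h, Subgroup.card_bot] at hV4
    omega
  obtain ⟨v₁, hv₁⟩ := (Subgroup.ne_bot_iff_exists_ne_one).1 hVne
  have hyS : ((v₁ : ↥N) : G) ∈ (S : Subgroup G) := (hVS v₁).1 v₁.2
  have hy1 : ((v₁ : ↥N) : G) ≠ 1 := by
    intro h
    apply hv₁
    apply Subtype.ext
    apply Subtype.ext
    exact h
  have hyt : ((v₁ : ↥N) : G) ≠ t := by
    intro h
    apply hset.t_not
    rw [← h]; exact hset.N_le (v₁ : ↥N).2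
  obtain ⟨n, hnS, hnt⟩ := hf t E N hset hab S htS t htS _ hyS hset.t_ne hy1
  have hnF : n ∈ F := (hFmem n).2 (hχN n hnS)
  have hnC : n ∉ centralizer ({t} : Set G) := by
    intro h
    have h2 : n * t = t * n := (hCt n).1 h
    apply hyt
    rw [← hnt, h2, mul_inv_cancel_right]
  have hFtop : F = ⊤ := by
    apply hco.2 F
    refine lt_of_le_of_ne hCF (fun h => hnC ?_)
    rw [h]; exact hnF
  refine ⟨w * a, fun x => ?_⟩
  have hxF : x ∈ F := by rw [hFtop]; exact Subgroup.mem_top x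
  have hx : χ x = x := (hFmem x).1 hxF
  rw [hχapp, hψapp] at hx
  calc φ x = w⁻¹ * (a⁻¹ * (a * (w * φ x * w⁻¹) * a⁻¹) * a) * w := by group
    _ = w⁻¹ * (a⁻¹ * x * a) * w := by rw [hx]
    _ = w * a * x * (w * a)⁻¹ := by rw [mul_inv_rev, hainv, hwinv]; group

end Cfsg.Agent.H27.JR
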