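import Mathlib
import Cfsg.Agent.H43.MCDefs

/-!
# S3905-MAINA (helper43's team project S3905): from a `p`-element `x ∈ N ∖ Z` with `C_N(x) ⊴ N`,
a minimal normal subgroup `L/Z` of `G/Z` inside `C_N(x)/Z`
-/

set_option autoImplicit false

namespace Cfsg.Agent.H27.MC

open Cfsg.Agent.H43.MC

universe u

/-- (β-pow) If `x ∈ N ∖ Z` has order `q^k` and `c ∈ N` commutes with `x` then some `c^(q^j)`
lies in `Z`. -/
theorem beta_pow (hS : StSplit.{u}) (hB : StBeta.{u}) {G : Type u} [Group G] [Finite G]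
    (N : Subgroup G) [N.Normal] (h : Hyp N) (q : ℕ) (hq : q.Prime) (x : G) (hxN : x ∈ N)
    (hxZ : x ∉ Subgroup.centralizer (N : Set G)) (hxo : ∃ k : ℕ, orderOf x = q ^ k)
    (c : G) (hcN : c ∈ N) (hcx : Commute c x) : ∃ j : ℕ, c ^ (q ^ j) ∈ ZN N := by
  obtain ⟨a, b, hab, ⟨k, hk⟩, hcop⟩ := hS G q hq c
  have hcbN : c ^ b ∈ N := N.pow_mem hcN b
  have hcbZ : c ^ b ∈ Subgroup.centralizer (N : Set G) := by
    by_contra hnot
    exact hB G N h q x (c ^ b) ⟨hq, hxN, hxZ, hxo, hcbN, hnot, (hcx.pow_left b).symm, hcop⟩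
  refine ⟨k, ?_⟩
  have h1 : c ^ (q ^ k) = (c ^ b) ^ (q ^ k) := by
    calc c ^ (q ^ k) = (c ^ a * c ^ b) ^ (q ^ k) := by rw [← hab]
      _ = (c ^ a) ^ (q ^ k) * (c ^ b) ^ (q ^ k) :=
        (Commute.pow_pow (Commute.refl c) a b).mul_pow _
      _ = (c ^ b) ^ (q ^ k) := by rw [← hk, pow_orderOf_eq_one, one_mul]
  rw [h1]
  exact (ZN N).pow_mem (mem_ZN.mpr ⟨hcbN, hcbZ⟩) _

/-- The centre of a normal subgroup is normal. -/
theorem zn_normal {G : Type u} [Group G] (N : Subgroup G) [hN : N.Normal] : (ZN N).Normal := by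
  refine ⟨fun z hz g => ?_⟩
  rw [mem_ZN] at hz
  obtain ⟨hzN, hzC⟩ := hz
  rw [mem_ZN]
  refine ⟨hN.conj_mem z hzN g, ?_⟩
  rw [mem_cent_set]
  intro n hn
  have h1 : (g⁻¹ * n * g) * z = z * (g⁻¹ * n * g) := by
    have h2 := hN.conj_mem n hn g⁻¹
    rw [inv_inv] at h2
    exact (mem_cent_set.mp hzC) _ h2
  calc n * (g * z * g⁻¹) = g * ((g⁻¹ * n * g) * z) * g⁻¹ := by group
    _ = g * (z * (g⁻¹ * n * g)) * g⁻¹ := by rw [h1]
    _ = g * z * g⁻¹ * n := by group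

/-- **S3905-MAINA**. -/
theorem mainA (hS : StSplit.{u}) (hB : StBeta.{u}) (hCF : StCF.{u}) : StMainA.{u} := by
  intro G _ _ N hNn h p x hp hxN hxZ hxo hnorm
  classical
  have hZnorm : (ZN N).Normal := zn_normal N
  obtain ⟨C, hC⟩ : ∃ C : Subgroup G, C = N ⊓ Subgroup.centralizer ({x} : Set G) := ⟨_, rfl⟩
  have hmemC : ∀ c, c ∈ C ↔ c ∈ N ∧ Commute c x := by
    intro c
    rw [hC, Subgroup.mem_inf, mem_cent_singleton]
    constructor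
    · rintro ⟨h1, h2⟩; exact ⟨h1, h2⟩
    · rintro ⟨h1, h2⟩; exact ⟨h1, h2⟩
  have hCnorm : C.Normal := by
    refine ⟨fun c hc g => ?_⟩
    obtain ⟨hcN, hcx⟩ := (hmemC c).mp hc
    obtain ⟨n, hn, m, hm, rfl⟩ := gnm h hxN hxZ g
    have hmx : Commute m x := mem_cent_singleton.mp hm
    have h1 : m * c * m⁻¹ ∈ N := hNn.conj_mem c hcN m
    have h2 : Commute (m * c * m⁻¹) x := (hmx.mul_left hcx).mul_left hmx.inv_left
    have h3 := hnorm n hn _ h1 h2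
    rw [hmemC]
    refine ⟨hNn.conj_mem c hcN _, ?_⟩
    have h4 : n * m * c * (n * m)⁻¹ = n * (m * c * m⁻¹) * n⁻¹ := by group
    rw [h4]; exact h3
  have hZC : ZN N ≤ C := by
    intro z hz
    rw [mem_ZN] at hz
    rw [hmemC]
    exact ⟨hz.1, ((mem_cent_set.mp hz.2) x hxN).symm⟩
  have hxC : x ∈ C := (hmemC x).mpr ⟨hxN, Commute.refl x⟩
  have hxnZ : x ∉ ZN N := fun hh => hxZ (mem_ZN.mp hh).2
  have hpowC : ∀ c ∈ C, ∃ j : ℕ, c ^ (p ^ j) ∈ ZN N := fun c hc =>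
    beta_pow hS hB N h p hp x hxN hxZ hxo c ((hmemC c).mp hc).1 ((hmemC c).mp hc).2
  obtain ⟨L, hLS, hLmin⟩ := Set.exists_min_image
    {L : Subgroup G | L.Normal ∧ ZN N ≤ L ∧ L ≤ C ∧ ¬ L ≤ ZN N} (fun L => Nat.card L)
    (Set.toFinite _) ⟨C, hCnorm, hZC, le_refl _, fun hh => hxnZ (hh hxC)⟩
  obtain ⟨hLnorm, hZL, hLC, hLZ⟩ := hLS
  have hmin : ∀ T : Subgroup G, T.Normal → ZN N ≤ T → T ≤ L → T ≤ ZN N ∨ T = L := by
    intro T hT hZT hTL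
    by_cases hTZ : T ≤ ZN N
    · exact Or.inl hTZ
    · right
      have h5 := hLmin T ⟨hT, hZT, hTL.trans hLC, hTZ⟩
      exact Subgroup.eq_of_le_of_card_ge hTL h5
  have hcf := hCF G p hp (ZN N) L hZnorm hLnorm hZL (fun b hb => hpowC b (hLC hb))
    (fun T hT hZT hTL => by
      rcases hmin T hT hZT hTL with h1 | h1
      · exact Or.inl (le_antisymm h1 hZT)
      · exact Or.inr h1)
  exact ⟨L, ⟨hp, fun l hl => ((hmemC l).mp (hLC hl)).1, hZL, hLZ, hLnorm, hcf.1, hcf.2, hmin⟩⟩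

example (hS : StSplit.{u}) (hB : StBeta.{u}) (hCF : StCF.{u}) :
    Cfsg.Agent.H43.MC.StMainA.{u} := mainA hS hB hCF

end Cfsg.Agent.H27.MC
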