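import Mathlib
import Cfsg.Agent.H43.MCDefs
import Cfsg.Agent.H27.MCMainA

/-!
# S3905-D2 (helper43's team project S3905): `C_N(y)/Z` is elementary abelian of exponent `r`
-/

set_option autoImplicit false

namespace Cfsg.Agent.H27.MC

open Cfsg.Agent.H43.MC

universe u

/-- For a normal subgroup `L`, `(l * c)^m ∈ L · c^m`. -/
theorem mul_pow_mem_normal {G : Type u} [Group G] (L : Subgroup G) [hL : L.Normal] (l c : G)
    (hl : l ∈ L) (m : ℕ) : ∃ l' ∈ L, (l * c) ^ m = l' * c ^ m := by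
  induction m with
  | zero => exact ⟨1, L.one_mem, by simp⟩
  | succ m ih =>
    obtain ⟨l', hl', h1⟩ := ih
    refine ⟨l' * (c ^ m * l * (c ^ m)⁻¹), L.mul_mem hl' (hL.conj_mem l hl _), ?_⟩
    rw [pow_succ, h1, pow_succ]
    group

/-- **S3905-D2**. -/
theorem mainD2 (hS : StSplit.{u}) (hB : StBeta.{u}) (hMB : StMainB.{u}) (hD1 : StMainD1.{u})
    (hCF : StCF.{u}) : StMainD2.{u} := by
  intro G _ _ N hNn h p r L y hF
  classical
  obtain ⟨hgood, hr, hne, hyN, hyo, hyL⟩ := hF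
  have hLnorm : L.Normal := hgood.hnorm
  obtain ⟨hprod, hint⟩ := hMB G N h p L hgood y hyN hyL
  obtain ⟨hab, hfpf⟩ := hD1 G N h p r L y ⟨hgood, hr, hne, hyN, hyo, hyL⟩
  have hyZ : y ∉ Subgroup.centralizer (N : Set G) := by
    intro hy
    obtain ⟨l, hl, hly⟩ := hyL
    exact hly ((mem_cent_set.mp hy) l (hgood.hLN hl))
  obtain ⟨l0, hl0L, hl0Z⟩ : ∃ l0 ∈ L, l0 ∉ ZN N := by
    by_contra hcon
    push Not at hcon
    exact hgood.hLZ hcon
  have hl0N : l0 ∈ N := hgood.hLN hl0L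
  have hl0C : l0 ∉ Subgroup.centralizer (N : Set G) := fun hh =>
    hl0Z (mem_ZN.mpr ⟨hl0N, hh⟩)
  -- (i) `C_N(l0) ≤ L`
  have hi : ∀ n ∈ N, Commute n l0 → n ∈ L := by
    intro n hn hnl
    obtain ⟨l, hl, c, hcN, hcy, rfl⟩ := hprod n hn
    have hll0 : Commute l l0 := hab l hl l0 hl0L
    have hcl0 : Commute c l0 := by
      have h1 : c = l⁻¹ * (l * c) := by group
      rw [h1]
      exact hll0.inv_left.mul_left hnl
    have hcZ : c ∈ Subgroup.centralizer (N : Set G) := by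
      by_contra hnot
      apply hl0Z
      apply hfpf c hcN hcy hnot l0 hl0L
      have h2 : c * l0 * c⁻¹ * l0⁻¹ = 1 := by
        rw [hcl0.eq]; group
      rw [h2]; exact (ZN N).one_mem
    exact L.mul_mem hl (hgood.hZL (mem_ZN.mpr ⟨hcN, hcZ⟩))
  -- (ii) no normal subgroup strictly between `L` and `N`
  have hii : ∀ T : Subgroup G, T.Normal → L ≤ T → T ≤ N → T = L ∨ T = N := by
    intro T hT hLT hTN
    rcases f6 h hl0N hl0C T hTN (fun m _ l hl => hT.conj_mem l hl m) with h1 | h1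
    · left
      apply le_antisymm _ hLT
      intro t ht
      exact hi t (hTN ht) (mem_cent_singleton.mp (h1 ht))
    · right
      apply le_antisymm hTN
      intro n hn
      obtain ⟨l, hl, c, hcN, hc, rfl⟩ := h1 n hn
      exact T.mul_mem hl (hLT (hi c hcN (mem_cent_singleton.mp hc)))
  -- (iii) `N/L` is an `r`-group
  have hiii : ∀ n ∈ N, ∃ k : ℕ, n ^ (r ^ k) ∈ L := by
    intro n hn
    obtain ⟨l, hl, c, hcN, hcy, rfl⟩ := hprod n hn
    obtain ⟨j, hj⟩ := beta_pow hS hB N h r hr y hyN hyZ hyo c hcN hcy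
    obtain ⟨l', hl', h1⟩ := mul_pow_mem_normal L l c hl (r ^ j)
    exact ⟨j, by rw [h1]; exact L.mul_mem hl' (hgood.hZL hj)⟩
  -- (iv)
  obtain ⟨hc1, hc2⟩ := hCF G r hr L N hLnorm hNn hgood.hLN hiii hii
  constructor
  · intro a ha hay b hb hby
    apply hint _ (hc1 a ha b hb)
    exact ((hay.mul_left hby).mul_left hay.inv_left).mul_left hby.inv_left
  · intro a ha hay
    apply hint _ (hc2 a ha)
    exact hay.pow_left r

example (hS : StSplit.{u}) (hB : StBeta.{u}) (hMB : StMainB.{u}) (hD1 : StMainD1.{u})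
    (hCF : StCF.{u}) : Cfsg.Agent.H43.MC.StMainD2.{u} := mainD2 hS hB hMB hD1 hCF

end Cfsg.Agent.H27.MC
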