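import Mathlib
import Cfsg.Agent.H83.PCDefs

/-!
# PC-CR (S3366 team project, helper83)

`C_X(R) ≤ R`: an element over `-1 ∈ SL(2,3)` centralizing `R` would make `R` abelian; hence
every element centralizing `R` has order dividing `9`, and `C_X(R) R` is a normal `3`-subgroup.
-/

set_option autoImplicit false

namespace Cfsg.Agent.H27.PC

open Matrix Cfsg.Agent.H83.PC

universe u

/-- entries: every `A ∈ SL(2,3)` has `A² = -1`, `A³ = -1` or `A³ = 1` -/
theorem cr_entries : ∀ a b c d : ZMod 3, a * d - b * c = 1 →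
    (a * a + b * c = -1 ∧ a * b + b * d = 0 ∧ c * a + d * c = 0 ∧ c * b + d * d = -1) ∨
    ((a * a + b * c) * a + (a * b + b * d) * c = -1 ∧
      (a * a + b * c) * b + (a * b + b * d) * d = 0 ∧
      (c * a + d * c) * a + (c * b + d * d) * c = 0 ∧
      (c * a + d * c) * b + (c * b + d * d) * d = -1) ∨
    ((a * a + b * c) * a + (a * b + b * d) * c = 1 ∧
      (a * a + b * c) * b + (a * b + b * d) * d = 0 ∧
      (c * a + d * c) * a + (c * b + d * d) * c = 0 ∧
      (c * a + d * c) * b + (c * b + d * d) * d = 1) := by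
  decide

/-- every `g ∈ SL(2,3)` has `g² = -1`, `g³ = -1` or `g³ = 1` -/
theorem cr_sl23 (g : SL23) : (g ^ 2).1 = -1 ∨ (g ^ 3).1 = -1 ∨ g ^ 3 = 1 := by
  have hd := sl_det g
  have e2 : (g ^ 2).1 = g.1 * g.1 := by rw [pow_two]; rfl
  have e3 : (g ^ 3).1 = g.1 * g.1 * g.1 := by rw [pow_succ, pow_two]; rfl
  have hA : g.1 = !![g.1 0 0, g.1 0 1; g.1 1 0, g.1 1 1] := Matrix.eta_fin_two g.1
  generalize g.1 0 0 = a at hd hA
  generalize g.1 0 1 = b at hd hA
  generalize g.1 1 0 = c at hd hA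
  generalize g.1 1 1 = d at hd hA
  have hm1 : (-1 : Matrix (Fin 2) (Fin 2) (ZMod 3)) = !![-1, 0; 0, -1] := by
    ext i j
    fin_cases i <;> fin_cases j <;> simp
  have h1 : (1 : Matrix (Fin 2) (Fin 2) (ZMod 3)) = !![1, 0; 0, 1] := Matrix.one_fin_two
  rcases cr_entries a b c d hd with h | h | h
  · left
    rw [e2, hA, Matrix.mul_fin_two, hm1, h.1, h.2.1, h.2.2.1, h.2.2.2]
  · right; left
    rw [e3, hA, Matrix.mul_fin_two, Matrix.mul_fin_two, hm1, h.1, h.2.1, h.2.2.1, h.2.2.2]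
  · right; right
    apply Subtype.ext
    rw [e3, hA, Matrix.mul_fin_two, Matrix.mul_fin_two, h.1, h.2.1, h.2.2.1, h.2.2.2]
    exact h1.symm

section

variable {X : Type u} [Group X]

/-- the centre of `R` as a subgroup -/
def zR (R : Subgroup X) : Subgroup X := R ⊓ Subgroup.centralizer (R : Set X)

theorem isZ_iff_mem_zR (R : Subgroup X) (z : X) : IsZ R z ↔ z ∈ zR R := by
  unfold IsZ zR
  rw [Subgroup.mem_inf, Subgroup.mem_centralizer_iff]
  constructor
  · rintro ⟨h1, h2⟩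
    exact ⟨h1, fun s hs => (h2 s hs).symm⟩
  · rintro ⟨h1, h2⟩
    exact ⟨h1, fun s hs => (h2 s hs).symm⟩

/-- if `r ↦ s r s⁻¹ r` takes values in the centre of `R`, commutators of `R` are central -/
theorem comm_mem_zR (R : Subgroup X) (s : X) (hs : ∀ r ∈ R, IsZ R (s * r * s⁻¹ * r))
    (r u : X) (hr : r ∈ R) (hu : u ∈ R) : r⁻¹ * u⁻¹ * r * u ∈ zR R := by
  have h1 := (isZ_iff_mem_zR R _).mp (hs r hr)
  have h2 := (isZ_iff_mem_zR R _).mp (hs u hu)
  have h3 := (isZ_iff_mem_zR R _).mp (hs (r * u) (R.mul_mem hr hu))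
  have hfree : s * (r * u) * s⁻¹ * (r * u) =
      (s * r * s⁻¹ * r) * (r⁻¹ * (s * u * s⁻¹ * u)) * (u⁻¹ * r * u) := by group
  have hcomm : r⁻¹ * (s * u * s⁻¹ * u) = (s * u * s⁻¹ * u) * r⁻¹ :=
    ((hs u hu).2 r⁻¹ (R.inv_mem hr)).symm
  have e : r⁻¹ * u⁻¹ * r * u =
      ((s * r * s⁻¹ * r) * (s * u * s⁻¹ * u))⁻¹ * (s * (r * u) * s⁻¹ * (r * u)) := by
    rw [hfree, hcomm]
    group
  rw [e]
  exact (zR R).mul_mem ((zR R).inv_mem ((zR R).mul_mem h1 h2)) h3

/-- if some `s ∈ R` has `s r s⁻¹ r` central in `R` for all `r ∈ R` and `R` has exponent `3`, then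
`R` is abelian -/
theorem abelian_of_inv (R : Subgroup X) (hR3 : ∀ r ∈ R, r ^ 3 = 1) (s : X) (hsR : s ∈ R)
    (hs : ∀ r ∈ R, IsZ R (s * r * s⁻¹ * r)) (a b : X) (ha : a ∈ R) (hb : b ∈ R) :
    a * b = b * a := by
  have hsq : ∀ r ∈ R, r * r ∈ zR R := by
    intro r hr
    have h1 := (isZ_iff_mem_zR R _).mp (hs r hr)
    have h2 := comm_mem_zR R s hs s⁻¹ r⁻¹ (R.inv_mem hsR) (R.inv_mem hr)
    rw [inv_inv, inv_inv] at h2
    have e : r * r = (s * r * s⁻¹ * r⁻¹)⁻¹ * (s * r * s⁻¹ * r) := by group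
    rw [e]
    exact (zR R).mul_mem ((zR R).inv_mem h2) h1
  have hz : ∀ r ∈ R, r ∈ zR R := by
    intro r hr
    have h4 := (zR R).mul_mem (hsq r hr) (hsq r hr)
    have e : r * r * (r * r) = r := by
      have h3 := hR3 r hr
      rw [pow_succ, pow_two] at h3
      calc r * r * (r * r) = (r * r * r) * r := by group
        _ = r := by rw [h3, one_mul]
    rwa [e] at h4
  exact ((isZ_iff_mem_zR R a).mpr (hz a ha)).2 b hb

end

theorem cr (hInv : StInv.{u}) : StCR.{u} := by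
  intro X _ _ R f hyp x hx
  obtain ⟨t, ht1, ht2, ht3⟩ := hInv X R f hyp
  obtain ⟨hRn, hRc, hR3, ⟨a, ha, b, hb, hab⟩, hsurj, hker, h3, h2, hE⟩ := hyp
  -- no element centralizing `R` lies over `-1`
  have hA : ∀ c : X, (∀ r ∈ R, c * r = r * c) → (f c).1 ≠ -1 := by
    intro c hc hfc
    obtain ⟨s, hs⟩ : ∃ s, s = c⁻¹ * t := ⟨_, rfl⟩
    have hsR : s ∈ R := by
      rw [hs, ← hker, MonoidHom.mem_ker, map_mul, map_inv]
      have e : f t = f c := Subtype.ext (by rw [ht2, hfc])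
      rw [e, inv_mul_cancel]
    have ht : t = c * s := by rw [hs]; group
    have hconj : ∀ r ∈ R, t * r * t⁻¹ = s * r * s⁻¹ := by
      intro r hr
      have h1 : s * r * s⁻¹ ∈ R := R.mul_mem (R.mul_mem hsR hr) (R.inv_mem hsR)
      have h2' := hc _ h1
      rw [ht]
      calc c * s * r * (c * s)⁻¹ = c * (s * r * s⁻¹) * c⁻¹ := by group
        _ = (s * r * s⁻¹) * c * c⁻¹ := by rw [h2']
        _ = s * r * s⁻¹ := by group
    have hz : ∀ r ∈ R, IsZ R (s * r * s⁻¹ * r) := by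
      intro r hr
      have h := ht3 r hr
      rwa [hconj r hr] at h
    exact hab (abelian_of_inv R hR3 s hsR hz a b ha hb)
  -- every element centralizing `R` has order dividing `9`
  have h9 : ∀ c : X, (∀ r ∈ R, c * r = r * c) → c ^ 9 = 1 := by
    intro c hc
    have hpow : ∀ k : ℕ, ∀ r ∈ R, c ^ k * r = r * c ^ k := by
      intro k r hr
      have hcm : Commute c r := hc r hr
      exact (hcm.pow_left k).eq
    rcases cr_sl23 (f c) with h | h | h
    · exfalso
      exact hA (c ^ 2) (hpow 2) (by rw [map_pow]; exact h)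
    · exfalso
      exact hA (c ^ 3) (hpow 3) (by rw [map_pow]; exact h)
    · have hc3 : c ^ 3 ∈ R := by
        rw [← hker, MonoidHom.mem_ker, map_pow]
        exact h
      have h' := hR3 _ hc3
      rw [← pow_mul] at h'
      exact h'
  -- `C_X(R) R` is a normal `3`-subgroup
  have := hRn
  have hPn : (Subgroup.centralizer (R : Set X) ⊔ R).Normal := inferInstance
  have hP3 : IsPGroup 3 ↥(Subgroup.centralizer (R : Set X) ⊔ R) := by
    intro g
    refine ⟨2, ?_⟩
    apply Subtype.ext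
    have hg : (g : X) ∈ ((Subgroup.centralizer (R : Set X) ⊔ R : Subgroup X) : Set X) := g.2
    rw [Subgroup.mul_normal] at hg
    obtain ⟨c, hc, r, hr, hcr⟩ := Set.mem_mul.mp hg
    have hc' : ∀ r ∈ R, c * r = r * c := fun r hr =>
      ((Subgroup.mem_centralizer_iff.mp hc) r hr).symm
    have hcm : Commute c r := hc' r hr
    have hr9 : r ^ 9 = 1 := by
      have h' := hR3 r hr
      calc r ^ 9 = (r ^ 3) ^ 3 := by rw [← pow_mul]
        _ = 1 := by rw [h', one_pow]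
    show ((g ^ 3 ^ 2 : ↥(Subgroup.centralizer (R : Set X) ⊔ R)) : X) = 1
    rw [Subgroup.coe_pow, ← hcr]
    norm_num
    rw [hcm.mul_pow, h9 c hc', hr9, one_mul]
  have hle := h3 _ hPn hP3
  apply hle
  apply Subgroup.mem_sup_left
  rw [Subgroup.mem_centralizer_iff]
  intro r hr
  exact (hx r hr).symm

example (hInv : StInv.{u}) : Cfsg.Agent.H83.PC.StCR.{u} := cr hInv

end Cfsg.Agent.H27.PC
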