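import Cfsg.Agent.H28.PLocal3

/-!
# `p`-constraint of `p`-local subgroups from maximal `p`-locals or from centralizers

* `isPConstrained_of_centralizer_normal` : if `T ⊴ X` is a `p`-subgroup and `C_X(T)` is
  `p`-constrained, then `X` is `p`-constrained.
* `isPConstrained_normalizer_of_le` : a `p`-local `N_G(T) ≤ M` of a `p`-constrained `M`.
* `isPConstrained_normalizer_of_centralizers` : if centralizers of elements of order `p` are
  `p`-constrained then so are the normalizers of nontrivial `p`-subgroups.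
-/

namespace Cfsg.Agent.H27

open Cfsg

universe u

section

variable {X : Type u} [Group X] [Finite X]

/-- If `T` is a normal `p`-subgroup of `X` whose centralizer is `p`-constrained, then `X` is
`p`-constrained. -/
theorem isPConstrained_of_centralizer_normal (p : ℕ) [Fact p.Prime] (T : Subgroup X) [hTn : T.Normal]
    (hT : IsPGroup p T) (hC : IsPConstrained p ↥(Subgroup.centralizer (T : Set X))) :
    IsPConstrained p X := by
  have hCn : (Subgroup.centralizer (T : Set X)).Normal := Subgroup.normal_centralizer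
  have hCsub : (Subgroup.centralizer (T : Set X)).IsSubnormal := Subgroup.Normal.isSubnormal hCn
  have hE1 := H28.layer_eq_bot_of_isPConstrained p hC
  have hE2 : layer ↥((Subgroup.centralizer (T : Set X)).map (QuotientGroup.mk' (pPrimeCore p X))) = ⊥ :=
    H28.layer_eq_bot_of_mulEquiv (subnormalQuotEquiv p hCsub).symm hE1
  apply H28.isPConstrained_of_layer_eq_bot p
  rw [H28.layer_eq_bot_iff]
  intro Kb hKb
  have hle : Kb ≤ (Subgroup.centralizer (T : Set X)).map (QuotientGroup.mk' (pPrimeCore p X)) := by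
    intro y hy
    obtain ⟨n, rfl⟩ := QuotientGroup.mk'_surjective (pPrimeCore p X) y
    refine Subgroup.mem_map.mpr ⟨n, ?_, rfl⟩
    rw [Subgroup.mem_centralizer_iff]
    intro t ht
    have h1 : Kb ≤ Subgroup.centralizer (pCore p (X ⧸ pPrimeCore p X) : Set (X ⧸ pPrimeCore p X)) :=
      (H28.le_centralizer_of_comm_eq_bot (H28.comm_component_fitting hKb)).trans
        (Subgroup.centralizer_le (H27.pCore_le_fitting p))
    have htb : (QuotientGroup.mk' (pPrimeCore p X)) t ∈ pCore p (X ⧸ pPrimeCore p X) := by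
      have hn : (T.map (QuotientGroup.mk' (pPrimeCore p X))).Normal :=
        Subgroup.Normal.map hTn _ (QuotientGroup.mk'_surjective _)
      exact H60.le_pCore hn (hT.map _) (Subgroup.mem_map_of_mem _ ht)
    have hc := Subgroup.mem_centralizer_iff.1 (h1 hy) _ htb
    -- `t * n = n * t` modulo `O_{p'}`
    have hmem1 : t * n * t⁻¹ * n⁻¹ ∈ pPrimeCore p X := by
      rw [← QuotientGroup.eq_one_iff, ← QuotientGroup.mk'_apply]
      simp only [map_mul, map_inv]
      rw [hc]; group
    have hmem2 : t * n * t⁻¹ * n⁻¹ ∈ T := by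
      have h3 : n * t⁻¹ * n⁻¹ ∈ T := hTn.conj_mem _ (T.inv_mem ht) n
      have h4 : t * (n * t⁻¹ * n⁻¹) ∈ T := T.mul_mem ht h3
      have h5 : t * n * t⁻¹ * n⁻¹ = t * (n * t⁻¹ * n⁻¹) := by group
      rw [h5]; exact h4
    have hdisj : T ⊓ pPrimeCore p X = ⊥ := by
      apply Disjoint.eq_bot
      apply Subgroup.disjoint_of_coprime_natCard
      obtain ⟨k, hk⟩ := IsPGroup.iff_card.mp hT
      rw [hk]
      exact Nat.Coprime.pow_left k (H60.card_pPrimeCore_coprime (G := X) p).symm
    have h6 : t * n * t⁻¹ * n⁻¹ ∈ T ⊓ pPrimeCore p X := Subgroup.mem_inf.mpr ⟨hmem2, hmem1⟩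
    rw [hdisj, Subgroup.mem_bot] at h6
    calc t * n = (t * n * t⁻¹ * n⁻¹) * (n * t) := by group
      _ = n * t := by rw [h6, one_mul]
  have hcomp := H27.isComponent_subgroupOf hle hKb
  exact (H28.layer_eq_bot_iff.1 hE2) _ hcomp

end

section

variable {G : Type u} [Group G] [Finite G]

/-- A `p`-local subgroup contained in a `p`-constrained subgroup `M` is `p`-constrained. -/
theorem isPConstrained_normalizer_of_le (p : ℕ) [Fact p.Prime] {M T : Subgroup G}
    (hM : IsPConstrained p ↥M) (hT : IsPGroup p ↥T)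
    (hNM : Subgroup.normalizer (T : Set G) ≤ M) :
    IsPConstrained p ↥(Subgroup.normalizer (T : Set G)) := by
  have hTM : T ≤ M := Subgroup.le_normalizer.trans hNM
  have hTp : IsPGroup p ↥(T.subgroupOf M) := hT.comap_subtype
  have h1 := (H28.isPConstrained_normalizer_centralizer p hM (T.subgroupOf M) hTp).1
  rw [← Subgroup.subgroupOf_normalizer_eq hTM] at h1
  exact H28.isPConstrained_of_mulEquiv p (Subgroup.subgroupOfEquivOfLe hNM) h1

omit [Finite G] in
theorem centralizer_subgroupOf_eq_of_le {H T : Subgroup G} (hTH : T ≤ H) :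
    Subgroup.centralizer ((T.subgroupOf H : Subgroup ↥H) : Set ↥H) =
      (Subgroup.centralizer (T : Set G)).subgroupOf H := by
  ext h
  rw [Subgroup.mem_subgroupOf, Subgroup.mem_centralizer_iff, Subgroup.mem_centralizer_iff]
  constructor
  · intro hh t ht
    have := hh ⟨t, hTH ht⟩ (Subgroup.mem_subgroupOf.mpr ht)
    exact congrArg Subtype.val this
  · intro hh t ht
    apply Subtype.ext
    exact hh (t : G) (Subgroup.mem_subgroupOf.mp ht)

/-- If the centralizer of `T` (a `p`-subgroup) is `p`-constrained then so is its normalizer. -/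
theorem isPConstrained_normalizer_of_centralizer (p : ℕ) [Fact p.Prime] {T : Subgroup G}
    (hT : IsPGroup p ↥T) (hC : IsPConstrained p ↥(Subgroup.centralizer (T : Set G))) :
    IsPConstrained p ↥(Subgroup.normalizer (T : Set G)) := by
  have hCN : Subgroup.centralizer (T : Set G) ≤ Subgroup.normalizer (T : Set G) :=
    Subgroup.centralizer_le_normalizer _
  have hTN : T ≤ Subgroup.normalizer (T : Set G) := Subgroup.le_normalizer
  have : (T.subgroupOf (Subgroup.normalizer (T : Set G))).Normal := Subgroup.normal_in_normalizer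
  apply isPConstrained_of_centralizer_normal p (T.subgroupOf (Subgroup.normalizer (T : Set G)))
    hT.comap_subtype
  rw [centralizer_subgroupOf_eq_of_le hTN]
  exact H28.isPConstrained_of_mulEquiv p (Subgroup.subgroupOfEquivOfLe hCN).symm hC

/-- If centralizers of elements of order `p` are `p`-constrained, then so is the normalizer of
every nontrivial `p`-subgroup. -/
theorem isPConstrained_normalizer_of_centralizers (p : ℕ) [Fact p.Prime]
    (h : ∀ x : G, orderOf x = p → IsPConstrained p ↥(Subgroup.centralizer ({x} : Set G)))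
    {T : Subgroup G} (hT : IsPGroup p ↥T) (hT1 : T ≠ ⊥) :
    IsPConstrained p ↥(Subgroup.normalizer (T : Set G)) := by
  apply isPConstrained_normalizer_of_centralizer p hT
  -- an element of order `p` in the centre of `T`
  have : Nontrivial ↥T := (Subgroup.nontrivial_iff_ne_bot T).mpr hT1
  have := hT.center_nontrivial
  have hZp : IsPGroup p ↥(Subgroup.center ↥T) := hT.to_subgroup _
  obtain ⟨k, hk⟩ := IsPGroup.iff_card.mp hZp
  have hk0 : k ≠ 0 := by
    rintro rfl
    rw [pow_zero] at hk
    have : Subsingleton ↥(Subgroup.center ↥T) := (Nat.card_eq_one_iff_unique.mp hk).1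
    exact not_subsingleton _ this
  have hdvd : p ∣ Nat.card ↥(Subgroup.center ↥T) := by
    rw [hk]; exact dvd_pow_self p hk0
  obtain ⟨z, hz⟩ := exists_prime_orderOf_dvd_card' (G := ↥(Subgroup.center ↥T)) p hdvd
  have hzo : orderOf ((z : ↥T) : G) = p := by
    rw [Subgroup.orderOf_coe, Subgroup.orderOf_coe]; exact hz
  have hH := h ((z : ↥T) : G) hzo
  have hTH : T ≤ Subgroup.centralizer ({((z : ↥T) : G)} : Set G) := by
    intro t ht
    rw [Subgroup.mem_centralizer_iff]
    intro y hy
    rw [Set.mem_singleton_iff] at hy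
    subst hy
    have := Subgroup.mem_center_iff.mp z.2 ⟨t, ht⟩
    exact (congrArg Subtype.val this).symm
  have hCH : Subgroup.centralizer (T : Set G) ≤ Subgroup.centralizer ({((z : ↥T) : G)} : Set G) :=
    Subgroup.centralizer_le (by
      intro y hy
      rw [Set.mem_singleton_iff] at hy
      subst hy
      exact (z : ↥T).2)
  have h1 := (H28.isPConstrained_normalizer_centralizer p hH
    (T.subgroupOf (Subgroup.centralizer ({((z : ↥T) : G)} : Set G))) hT.comap_subtype).2
  rw [centralizer_subgroupOf_eq_of_le hTH] at h1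
  exact H28.isPConstrained_of_mulEquiv p (Subgroup.subgroupOfEquivOfLe hCH) h1

/-- If the maximal proper `p`-locals are `p`-constrained then every proper `p`-local is. -/
theorem isPConstrained_normalizer_of_maximal (p : ℕ) [Fact p.Prime]
    (h : ∀ M : Subgroup G, (∃ T : Subgroup G, IsPGroup p ↥T ∧ T ≠ ⊥ ∧ M = Subgroup.normalizer (T : Set G)) → M ≠ ⊤ →
        (∀ M' : Subgroup G, (∃ T' : Subgroup G, IsPGroup p ↥T' ∧ T' ≠ ⊥ ∧ M' = Subgroup.normalizer (T' : Set G)) → M' ≠ ⊤ → M ≤ M' → M = M') →
        IsPConstrained p ↥M)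
    {T : Subgroup G} (hT : IsPGroup p ↥T) (hT1 : T ≠ ⊥)
    (hTG : Subgroup.normalizer (T : Set G) ≠ ⊤) :
    IsPConstrained p ↥(Subgroup.normalizer (T : Set G)) := by
  let S : Set (Subgroup G) := {M | (∃ T' : Subgroup G, IsPGroup p ↥T' ∧ T' ≠ ⊥ ∧
    M = Subgroup.normalizer (T' : Set G)) ∧ M ≠ ⊤ ∧ Subgroup.normalizer (T : Set G) ≤ M}
  have hSne : S.Nonempty := ⟨_, ⟨T, hT, hT1, rfl⟩, hTG, le_rfl⟩
  obtain ⟨M, hM⟩ := Set.Finite.exists_maximal (Set.toFinite S) hSne
  obtain ⟨⟨hM1, hM2, hM3⟩, hmax⟩ := hM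
  have hMc : IsPConstrained p ↥M := by
    apply h M hM1 hM2
    intro M' hM' hM'top hle
    exact le_antisymm hle (hmax ⟨hM', hM'top, hM3.trans hle⟩ hle)
  exact isPConstrained_normalizer_of_le p hMc hT hM3

end

end Cfsg.Agent.H27
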