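import Mathlib
import Cfsg.Agent.H27.ZStarHyp

/-!
# 2-automorphisms centralizing an abelian Sylow 2-subgroup are inner (helper27; S4593 from Z*)
-/

set_option autoImplicit false

namespace Cfsg.Agent.H27

open Cfsg

universe u

/-- Averaging over the cosets of a subgroup of finite index fixing `v₀`. -/
theorem exists_fixed_avg {N V : Type*} [Group N] [CommGroup V] (ρ : N →* MulAut V)
    (Q : Subgroup N) [Q.FiniteIndex] (v₀ : V) (hQ : ∀ q ∈ Q, ρ q v₀ = v₀) :
    ∃ a : V, (∀ n, ρ n a = a) ∧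
      ∀ W : Subgroup V, (∀ n, ρ n v₀ / v₀ ∈ W) → a / v₀ ^ Q.index ∈ W := by
  classical
  letI : Fintype (N ⧸ Q) := Q.fintypeQuotientOfFiniteIndex
  let f : N ⧸ Q → V := fun c => ρ c.out v₀
  have hf : ∀ m : N, f (m : N ⧸ Q) = ρ m v₀ := by
    intro m
    obtain ⟨h, hh⟩ := QuotientGroup.mk_out_eq_mul Q m
    show ρ (m : N ⧸ Q).out v₀ = ρ m v₀
    rw [hh, map_mul, MulAut.mul_apply, hQ h h.2]
  refine ⟨∏ c, f c, ?_, ?_⟩
  · intro n
    rw [map_prod]
    have h1 : ∀ c : N ⧸ Q, ρ n (f c) = f (n • c) := by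
      intro c
      induction c using QuotientGroup.induction_on with
      | H m =>
        rw [hf]
        show _ = f ((n * m : N) : N ⧸ Q)
        rw [hf, map_mul, MulAut.mul_apply]
    simp_rw [h1]
    exact Fintype.prod_equiv (MulAction.toPerm n) _ _ (fun c => rfl)
  · intro W hW
    have h1 : (∏ c, f c) / v₀ ^ Q.index = ∏ c, (f c / v₀) := by
      rw [Finset.prod_div_distrib, Finset.prod_const, Finset.card_univ, Subgroup.index_eq_card,
        Nat.card_eq_fintype_card]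
    rw [h1]
    apply Subgroup.prod_mem
    intro c _
    induction c using QuotientGroup.induction_on with
    | H m => rw [hf]; exact hW m

/-- An automorphism commuting with all inner automorphisms of a centerless group is trivial. -/
theorem aut_eq_one_of_commute_conj {G : Type*} [Group G] (hZ : Subgroup.center G = ⊥)
    (φ : MulAut G) (h : ∀ g : G, φ * MulAut.conj g = MulAut.conj g * φ) : φ = 1 := by
  apply MulEquiv.ext
  intro g
  have hc : g⁻¹ * φ g ∈ Subgroup.center G := by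
    rw [Subgroup.mem_center_iff]
    intro x
    have h1 := congrArg (fun ψ : MulAut G => ψ (φ.symm x)) (h g)
    simp only [MulAut.mul_apply, MulAut.conj_apply, map_mul, map_inv,
      MulEquiv.apply_symm_apply] at h1
    calc x * (g⁻¹ * φ g) = g⁻¹ * (g * x * g⁻¹) * φ g := by group
      _ = g⁻¹ * (φ g * x * (φ g)⁻¹) * φ g := by rw [h1]
      _ = g⁻¹ * φ g * x := by group
  rw [hZ, Subgroup.mem_bot] at hc
  calc φ g = g * (g⁻¹ * φ g) := by group
    _ = g := by rw [hc, mul_one]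

/-- **Glauberman** (from Z*): in a finite group with trivial centre and trivial odd core whose
Sylow 2-subgroup `P` is abelian, an automorphism of 2-power order fixing `P` elementwise is
inner. -/
theorem aut_inner_of_fix_sylow (hZS : ZStarAt.{u}) {G : Type u} [Group G] [Finite G]
    (hZ : Subgroup.center G = ⊥) (hcore : Cfsg.pPrimeCore 2 G = ⊥) (P : Sylow 2 G)
    (hab : ∀ x ∈ (P : Subgroup G), ∀ y ∈ (P : Subgroup G), x * y = y * x)
    (α : MulAut G) (j : ℕ) (hα : α ^ 2 ^ j = 1) (hfix : ∀ x ∈ (P : Subgroup G), α x = x) :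
    α ∈ (MulAut.conj : G →* MulAut G).range := by
  classical
  by_contra hαI
  set c : G →* MulAut G := MulAut.conj with hc
  set I : Subgroup (MulAut G) := c.range with hI
  have hconj : ∀ (φ : MulAut G) (g : G), φ * c g * φ⁻¹ = c (φ g) := by
    intro φ g
    apply MulEquiv.ext
    intro x
    simp [hc, MulAut.conj_apply, MulAut.mul_apply, MulAut.inv_apply]
  haveI hIn : I.Normal := by
    constructor
    rintro _ ⟨g, rfl⟩ φ
    exact ⟨φ g, (hconj φ g).symm⟩
  have hcinj : Function.Injective c := by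
    rw [injective_iff_map_eq_one]
    intro g hg
    have h1 : g ∈ Subgroup.center G := by
      rw [Subgroup.mem_center_iff]
      intro x
      have h2 := congrArg (fun ψ : MulAut G => ψ x) hg
      simp only [hc, MulAut.conj_apply, MulAut.one_apply] at h2
      calc x * g = g * x * g⁻¹ * g := by rw [h2]
        _ = g * x := by group
    rwa [hZ, Subgroup.mem_bot] at h1
  set X : Subgroup (MulAut G) := I ⊔ Subgroup.zpowers α with hX
  have hIX : I ≤ X := le_sup_left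
  have hzX : Subgroup.zpowers α ≤ X := le_sup_right
  have hαX : α ∈ X := hzX (Subgroup.mem_zpowers α)
  have hαP : ∀ x ∈ (P : Subgroup G), α * c x = c x * α := by
    intro x hx
    have h1 := hconj α x
    rw [hfix x hx] at h1
    calc α * c x = α * c x * α⁻¹ * α := by group
      _ = c x * α := by rw [h1]
  set T : Subgroup (MulAut G) := (P : Subgroup G).map c ⊔ Subgroup.zpowers α with hT
  have hPT : (P : Subgroup G).map c ≤ T := le_sup_left
  have hzT : Subgroup.zpowers α ≤ T := le_sup_right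
  have hTX : T ≤ X := sup_le ((Subgroup.map_le_range c _).trans hIX) hzX
  have h1 : (P : Subgroup G).map c ≤
      Subgroup.centralizer (((P : Subgroup G).map c : Subgroup (MulAut G)) : Set (MulAut G)) := by
    rintro _ ⟨x, hx, rfl⟩
    rw [Subgroup.mem_centralizer_iff]
    rintro _ ⟨y, hy, rfl⟩
    rw [← map_mul, ← map_mul, hab y hy x hx]
  have h2 : Subgroup.zpowers α ≤
      Subgroup.centralizer (((P : Subgroup G).map c : Subgroup (MulAut G)) : Set (MulAut G)) := by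
    rw [Subgroup.zpowers_le, Subgroup.mem_centralizer_iff]
    rintro _ ⟨y, hy, rfl⟩
    exact (hαP y hy).symm
  have h3 : (P : Subgroup G).map c ≤
      Subgroup.centralizer ((Subgroup.zpowers α : Subgroup (MulAut G)) : Set (MulAut G)) :=
    Subgroup.le_centralizer_iff.mp h2
  have h4 : Subgroup.zpowers α ≤
      Subgroup.centralizer ((Subgroup.zpowers α : Subgroup (MulAut G)) : Set (MulAut G)) := by
    rw [Subgroup.zpowers_le, Subgroup.mem_centralizer_iff]
    intro y hy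
    obtain ⟨k, rfl⟩ := Subgroup.mem_zpowers_iff.mp hy
    exact (Commute.zpow_self α k)
  have h5 : (P : Subgroup G).map c ≤ Subgroup.centralizer (T : Set (MulAut G)) :=
    Subgroup.le_centralizer_iff.mp (sup_le h1 h2)
  have h6 : Subgroup.zpowers α ≤ Subgroup.centralizer (T : Set (MulAut G)) :=
    Subgroup.le_centralizer_iff.mp (sup_le h3 h4)
  have hTcomm : ∀ s ∈ T, ∀ t ∈ T, s * t = t * s := by
    intro s hs t ht
    exact ((Subgroup.mem_centralizer_iff.mp ((sup_le h5 h6 : T ≤ _) hs)) t ht).symm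
  have hT2 : IsPGroup 2 T := by
    have hz2 : IsPGroup 2 (Subgroup.zpowers α) := by
      intro y
      refine ⟨j, ?_⟩
      obtain ⟨k, hk⟩ := Subgroup.mem_zpowers_iff.mp y.2
      apply Subtype.ext
      rw [Subgroup.coe_pow, ← hk, ← zpow_natCast, ← zpow_mul, mul_comm, zpow_mul, zpow_natCast,
        hα, one_zpow]
      rfl
    have hP2 : IsPGroup 2 ((P : Subgroup G).map c) := P.2.map c
    exact IsPGroup.to_sup_of_normal_right' hP2 hz2
      (h3.trans (Subgroup.centralizer_le_normalizer _))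
  obtain ⟨𝒬, h𝒬⟩ := (hT2.comap_subtype (K := X)).exists_le_sylow
  have hT𝒬 : ∀ t (ht : t ∈ T), (⟨t, hTX ht⟩ : ↥X) ∈ 𝒬 := fun t ht => h𝒬 ht
  let ι : G →* ↥X := c.codRestrict X (fun g => hIX ⟨g, rfl⟩)
  have hιinj : Function.Injective ι := fun x y h => hcinj (congrArg Subtype.val h)
  have hιP : (𝒬 : Subgroup ↥X).comap ι = (P : Subgroup G) := by
    apply P.is_maximal' (𝒬.2.comap_of_injective ι hιinj)
    intro x hx
    rw [Subgroup.mem_comap]
    exact hT𝒬 _ (hPT ⟨x, hx, rfl⟩)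
  have h𝒬T : ∀ q : ↥X, q ∈ 𝒬 → (q : MulAut G) ∈ T := by
    intro q hq
    have hq' : (q : MulAut G) ∈ (↑(I ⊔ Subgroup.zpowers α) : Set (MulAut G)) := q.2
    rw [Subgroup.normal_mul] at hq'
    obtain ⟨i, hi, z, hz, hiz⟩ := Set.mem_mul.mp hq'
    obtain ⟨g, rfl⟩ := hi
    have hz𝒬 : (⟨z, hzX hz⟩ : ↥X) ∈ 𝒬 := hT𝒬 z (hzT hz)
    have hcg : ι g ∈ 𝒬 := by
      have h7 : ι g = q * (⟨z, hzX hz⟩ : ↥X)⁻¹ := by
        apply Subtype.ext
        show c g = (q : MulAut G) * z⁻¹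
        rw [← hiz, mul_inv_cancel_right]
      rw [h7]
      exact (𝒬 : Subgroup ↥X).mul_mem hq ((𝒬 : Subgroup ↥X).inv_mem hz𝒬)
    have hgP : g ∈ (P : Subgroup G) := by rw [← hιP, Subgroup.mem_comap]; exact hcg
    rw [← hiz]
    exact T.mul_mem (hPT ⟨g, hgP, rfl⟩) (hzT hz)
  have h𝒬comm : ∀ x ∈ 𝒬, ∀ y ∈ 𝒬, x * y = y * x := by
    intro x hx y hy
    apply Subtype.ext
    exact hTcomm _ (h𝒬T x hx) _ (h𝒬T y hy)
  have hcentral : ∀ n ∈ X, n * α * n⁻¹ * α⁻¹ ∈ I := by
    intro n hn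
    have hn' : n ∈ (↑(I ⊔ Subgroup.zpowers α) : Set (MulAut G)) := hn
    rw [Subgroup.normal_mul] at hn'
    obtain ⟨i, hi, z, hz, rfl⟩ := Set.mem_mul.mp hn'
    obtain ⟨k, rfl⟩ := Subgroup.mem_zpowers_iff.mp hz
    have h7 : i * α ^ k * α * (i * α ^ k)⁻¹ * α⁻¹ = i * (α * i⁻¹ * α⁻¹) := by group
    rw [h7]
    exact I.mul_mem hi (hIn.conj_mem _ (I.inv_mem hi) α)
  set a₀ : ↥X := ⟨α, hαX⟩ with ha₀
  have ha₀𝒬 : a₀ ∈ 𝒬 := hT𝒬 α (hzT (Subgroup.mem_zpowers α))
  -- the averaging argument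
  letI : CommGroup ↥(𝒬 : Subgroup ↥X) :=
    { (inferInstance : Group ↥(𝒬 : Subgroup ↥X)) with
      mul_comm := fun x y => Subtype.ext (h𝒬comm x x.2 y y.2) }
  set N : Subgroup ↥X := Subgroup.normalizer ((𝒬 : Subgroup ↥X) : Set ↥X) with hN
  let ρ : ↥N →* MulAut ↥(𝒬 : Subgroup ↥X) := (𝒬 : Subgroup ↥X).normalizerMonoidHom
  let v₀ : ↥(𝒬 : Subgroup ↥X) := ⟨a₀, ha₀𝒬⟩
  have hρ : ∀ (n : ↥N) (v : ↥(𝒬 : Subgroup ↥X)),
      ((ρ n v : ↥(𝒬 : Subgroup ↥X)) : ↥X) = n * v * (n : ↥X)⁻¹ := fun n v => rfl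
  obtain ⟨a, haN, haW⟩ := exists_fixed_avg ρ ((𝒬 : Subgroup ↥X).subgroupOf N) v₀ (by
    intro q hq
    apply Subtype.ext
    rw [hρ]
    have h7 := h𝒬comm _ (Subgroup.mem_subgroupOf.mp hq) _ ha₀𝒬
    show (q : ↥X) * a₀ * (q : ↥X)⁻¹ = a₀
    rw [h7, mul_inv_cancel_right])
  let W : Subgroup ↥(𝒬 : Subgroup ↥X) := ((I.subgroupOf X).subgroupOf (𝒬 : Subgroup ↥X))
  have hW : ∀ w : ↥(𝒬 : Subgroup ↥X), w ∈ W ↔ ((w : ↥X) : MulAut G) ∈ I := fun w => Iff.rfl
  have haW' := haW W (by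
    intro n
    rw [hW]
    exact hcentral (n : ↥X) (n : ↥X).2)
  have hidx : Odd ((𝒬 : Subgroup ↥X).subgroupOf N).index := by
    have h7 : ((𝒬 : Subgroup ↥X).subgroupOf N).index ∣ (𝒬 : Subgroup ↥X).index :=
      Subgroup.relIndex_dvd_index_of_le Subgroup.le_normalizer
    have h8 : ¬ 2 ∣ (𝒬 : Subgroup ↥X).index := Sylow.not_dvd_index 𝒬
    have h9 : Odd (𝒬 : Subgroup ↥X).index := by
      rw [← Nat.not_even_iff_odd, even_iff_two_dvd]; exact h8
    exact h9.of_dvd_nat h7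
  have haI : ((a : ↥X) : MulAut G) ∉ I := by
    intro haI
    have h7 : (v₀ ^ ((𝒬 : Subgroup ↥X).subgroupOf N).index) ∈ W := by
      have h8 := W.div_mem ((hW a).mpr haI) haW'
      rwa [div_div_cancel] at h8
    rw [hW] at h7
    have h8 : α ^ (((𝒬 : Subgroup ↥X).subgroupOf N).index) ∈ I := h7
    apply hαI
    have hcop : Nat.Coprime (((𝒬 : Subgroup ↥X).subgroupOf N).index) (2 ^ j) :=
      Nat.Coprime.pow_right j (Nat.coprime_two_right.mpr hidx)
    have key := Nat.gcd_eq_gcd_ab (((𝒬 : Subgroup ↥X).subgroupOf N).index) (2 ^ j)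
    rw [hcop.gcd_eq_one] at key
    have h9 : α = (α ^ (((𝒬 : Subgroup ↥X).subgroupOf N).index)) ^
          (Nat.gcdA (((𝒬 : Subgroup ↥X).subgroupOf N).index) (2 ^ j)) *
        (α ^ 2 ^ j) ^ (Nat.gcdB (((𝒬 : Subgroup ↥X).subgroupOf N).index) (2 ^ j)) := by
      rw [← zpow_natCast, ← zpow_natCast, ← zpow_mul, ← zpow_mul, ← zpow_add, ← key]
      simp
    rw [h9, hα, one_zpow, mul_one]
    exact I.zpow_mem h8 _
  set a' : ↥X := (a : ↥X) with ha'
  have ha'𝒬 : a' ∈ 𝒬 := a.2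
  have ha'1 : a' ≠ 1 := by
    intro h
    apply haI
    rw [h]
    exact I.one_mem
  have ha'N : ∀ n ∈ N, n * a' * n⁻¹ = a' := by
    intro n hn
    exact congrArg Subtype.val (haN ⟨n, hn⟩)
  obtain ⟨k, hk⟩ := 𝒬.2 ⟨a', ha'𝒬⟩
  have hk' : a' ^ 2 ^ k = 1 := congrArg Subtype.val hk
  obtain ⟨i, hi, hio⟩ := (Nat.dvd_prime_pow Nat.prime_two).mp (orderOf_dvd_of_pow_eq_one hk')
  have hi1 : i ≠ 0 := by
    rintro rfl
    rw [pow_zero, orderOf_eq_one_iff] at hio
    exact ha'1 hio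
  set b : ↥X := a' ^ 2 ^ (i - 1) with hb
  have hb2 : orderOf b = 2 := by
    apply orderOf_eq_prime
    · rw [hb, ← pow_mul, ← pow_succ, Nat.sub_add_cancel (Nat.one_le_iff_ne_zero.mpr hi1), ← hio]
      exact pow_orderOf_eq_one a'
    · rw [hb]
      apply pow_ne_one_of_lt_orderOf (by positivity)
      rw [hio]
      exact Nat.pow_lt_pow_right (by norm_num) (by omega)
  have hb𝒬 : b ∈ 𝒬 := (𝒬 : Subgroup ↥X).pow_mem ha'𝒬 _
  have hbN : ∀ n ∈ N, n * b * n⁻¹ = b := by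
    intro n hn
    rw [hb, ← conj_pow, ha'N n hn]
  have hiso : ∀ g : ↥X, g * b * g⁻¹ ∈ 𝒬 → g * b * g⁻¹ = b := by
    intro g hg
    have hcen : ∀ y ∈ 𝒬, y ∈ Subgroup.centralizer ((𝒬 : Subgroup ↥X) : Set ↥X) := by
      intro y hy
      rw [Subgroup.mem_centralizer_iff]
      intro h hh
      exact h𝒬comm h hh y hy
    obtain ⟨n, hn, hnb⟩ := Sylow.conj_eq_normalizer_conj_of_mem_centralizer 𝒬 b g⁻¹
      (hcen b hb𝒬) (by rw [inv_inv]; exact hcen _ hg)
    rw [inv_inv] at hnb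
    rw [hnb]
    have h7 := hbN n⁻¹ (N.inv_mem hn)
    rwa [inv_inv] at h7
  have hO : ∀ M : Subgroup ↥X, M.Normal → Odd (Nat.card M) → M = ⊥ := by
    intro M hMn hModd
    have h7 : (M.comap ι) ≤ Cfsg.pPrimeCore 2 G := by
      apply Cfsg.Agent.H60.le_pPrimeCore (hMn.comap ι)
      apply Nat.coprime_two_right.mpr
      apply hModd.of_dvd_nat
      have h8 := Subgroup.card_dvd_of_le (Subgroup.map_comap_le ι M)
      rwa [Subgroup.card_map_of_injective hιinj] at h8
    rw [hcore] at h7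
    rw [eq_bot_iff]
    intro m hm
    rw [Subgroup.mem_bot]
    apply Subtype.ext
    show (m : MulAut G) = 1
    apply MulEquiv.ext
    intro g
    have h8 : (m : MulAut G) g * g⁻¹ ∈ M.comap ι := by
      rw [Subgroup.mem_comap]
      have h9 : ι ((m : MulAut G) g * g⁻¹) = m * (ι g * m⁻¹ * (ι g)⁻¹) := by
        apply Subtype.ext
        show c ((m : MulAut G) g * g⁻¹) = (m : MulAut G) * (c g * (m : MulAut G)⁻¹ * (c g)⁻¹)
        rw [map_mul, ← hconj (m : MulAut G) g, map_inv]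
        group
      rw [h9]
      exact M.mul_mem hm (hMn.conj_mem _ (M.inv_mem hm) _)
    have h10 := h7 h8
    rw [Subgroup.mem_bot] at h10
    calc (m : MulAut G) g = (m : MulAut G) g * g⁻¹ * g := by group
      _ = g := by rw [h10, one_mul]
  have hbc := hZS.commute 𝒬 b hb2 hb𝒬 hiso hO
  have hb1 : (b : MulAut G) = 1 := by
    apply aut_eq_one_of_commute_conj hZ
    intro g
    exact congrArg Subtype.val (hbc (ι g))
  have hb1' : b = 1 := Subtype.ext hb1
  rw [hb1', orderOf_one] at hb2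
  exact absurd hb2 (by norm_num)

end Cfsg.Agent.H27
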