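import Cfsg.Agent.H27.ZStarCyclicChar
import Cfsg.Agent.H11.Isolated
import Mathlib.GroupTheory.Perm.Cycle.Type
import Mathlib.GroupTheory.Nilpotent

/-!
# Maximal invariant `p`-subgroups for an isolated involution are Sylow (helper27; S1187 from Z*)
-/

set_option autoImplicit false

namespace Cfsg.Agent.H27

open Cfsg
open scoped Pointwise

universe u

/-- An isolated involution is isolated in a Sylow 2-subgroup, so the Z*-theorem applies. -/
theorem isolated_comm_mem_oddCore (hZ : ZStarAt.{u}) {G : Type u} [Group G] [Finite G] (z : G)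
    (hz : IsIsolatedInvolution z) (g : G) : z * g * z⁻¹ * g⁻¹ ∈ oddCore G := by
  have hp2 : IsPGroup 2 (Subgroup.zpowers z) := by
    apply IsPGroup.of_card (n := 1)
    rw [Nat.card_zpowers, hz.1, pow_one]
  obtain ⟨P, hP⟩ := hp2.exists_le_sylow
  have hzP : z ∈ P := hP (Subgroup.mem_zpowers z)
  refine hZ.mem_oddCore P z hz.1 hzP ?_ g
  intro c hc
  have hodd := Cfsg.Agent.H11.isolated_odd_orderOf_mul_conj hz c
  have hmem : z * (c * z * c⁻¹) ∈ (P : Subgroup G) := (P : Subgroup G).mul_mem hzP hc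
  obtain ⟨k, hk⟩ := P.2 ⟨_, hmem⟩
  have hk' : (z * (c * z * c⁻¹)) ^ 2 ^ k = 1 := by
    have := congrArg Subtype.val hk
    simpa using this
  have hdvd := orderOf_dvd_of_pow_eq_one hk'
  have h1 : orderOf (z * (c * z * c⁻¹)) = 1 := by
    have hcop : Nat.Coprime (orderOf (z * (c * z * c⁻¹))) (2 ^ k) :=
      Nat.Coprime.pow_right k (Nat.coprime_two_right.mpr hodd)
    exact Nat.Coprime.eq_one_of_dvd hcop hdvd
  rw [orderOf_eq_one_iff] at h1
  have hzz : z * z = 1 := by rw [← pow_two, ← hz.1]; exact pow_orderOf_eq_one z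
  calc c * z * c⁻¹ = z * (z * (c * z * c⁻¹)) := by rw [← mul_assoc, hzz, one_mul]
    _ = z := by rw [h1, mul_one]

/-- An automorphism of order dividing 2 of a group of odd order fixes a Sylow `p`-subgroup. -/
theorem exists_fixed_sylow {N : Type*} [Group N] [Finite N] (φ : MulAut N) (hφ : φ ^ 2 = 1)
    (hodd : Odd (Nat.card N)) (p : ℕ) [Fact p.Prime] : ∃ R : Sylow p N, φ • R = R := by
  classical
  haveI : Fintype (Sylow p N) := Fintype.ofFinite _
  have hnd : ¬ 2 ∣ Fintype.card (Sylow p N) := by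
    rw [← Nat.card_eq_fintype_card]
    intro h2
    obtain ⟨R⟩ : Nonempty (Sylow p N) := inferInstance
    have h3 : Nat.card (Sylow p N) ∣ Nat.card N :=
      (Sylow.card_dvd_index R).trans (Subgroup.index_dvd_card _)
    have h4 := hodd.of_dvd_nat (h2.trans h3)
    exact absurd h4 (by decide)
  haveI : Fact (Nat.Prime 2) := ⟨Nat.prime_two⟩
  obtain ⟨R, hR⟩ := Equiv.Perm.exists_fixed_point_of_prime (p := 2) (n := 1) hnd
    (σ := MulAction.toPermHom (MulAut N) (Sylow p N) φ)
    (by rw [pow_one, ← map_pow, hφ, map_one])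
  exact ⟨R, hR⟩

/-- The normalizer condition for a `p`-subgroup, stated in the ambient group. -/
theorem exists_normalizing_of_lt {G : Type*} [Group G] [Finite G] {p : ℕ} [Fact p.Prime]
    {Q P : Subgroup G} (hP : IsPGroup p P) (hlt : Q < P) :
    ∃ x ∈ P, x ∉ Q ∧ x ∈ Subgroup.normalizer (Q : Set G) := by
  haveI : Group.IsNilpotent ↥P := hP.isNilpotent
  have hnc := Group.normalizerCondition_of_isNilpotent (G := ↥P)
  have h1 : Q.subgroupOf P < ⊤ := by
    rw [lt_top_iff_ne_top]
    intro h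
    rw [Subgroup.subgroupOf_eq_top] at h
    exact (not_le_of_gt hlt) h
  have h2 := hnc _ h1
  obtain ⟨y, hyN, hyQ⟩ := SetLike.exists_of_lt h2
  refine ⟨y, y.2, fun h => hyQ (Subgroup.mem_subgroupOf.mpr h), ?_⟩
  rw [Subgroup.mem_normalizer_iff]
  intro h
  constructor
  · intro hh
    have := (Subgroup.mem_normalizer_iff.mp hyN ⟨h, hlt.le hh⟩).mp (Subgroup.mem_subgroupOf.mpr hh)
    exact Subgroup.mem_subgroupOf.mp this
  · intro hh
    have hhP : h ∈ P := by
      have : h = (y : G)⁻¹ * (y * h * (y : G)⁻¹) * y := by group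
      rw [this]
      exact P.mul_mem (P.mul_mem (P.inv_mem y.2) (hlt.le hh)) y.2
    have := (Subgroup.mem_normalizer_iff.mp hyN ⟨h, hhP⟩).mpr (Subgroup.mem_subgroupOf.mpr hh)
    exact Subgroup.mem_subgroupOf.mp this

/-- If the involution `z` acts trivially modulo the odd core, then a maximal `z`-invariant
`p`-subgroup is a Sylow `p`-subgroup. -/
theorem maximal_invariant_sylow {G : Type*} [Group G] [Finite G] (z : G) (hz2 : orderOf z = 2)
    (hzO : ∀ g : G, z * g * z⁻¹ * g⁻¹ ∈ oddCore G) {p : ℕ} [Fact p.Prime] (Q : Subgroup G)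
    (hQ : IsPGroup p Q) (hzQ : z ∈ Subgroup.normalizer (Q : Set G))
    (hmax : ∀ R : Subgroup G, IsPGroup p R → z ∈ Subgroup.normalizer (R : Set G) → Q ≤ R →
      R = Q) : ∃ P : Sylow p G, (P : Subgroup G) = Q := by
  obtain ⟨P, hQP⟩ := hQ.exists_le_sylow
  have hzz : z * z = 1 := by rw [← pow_two, ← hz2]; exact pow_orderOf_eq_one z
  have hzi : z⁻¹ = z := inv_eq_of_mul_eq_one_left hzz
  by_cases hp : p = 2
  · subst hp
    have hp2 : IsPGroup 2 (Subgroup.zpowers z) := by
      apply IsPGroup.of_card (n := 1)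
      rw [Nat.card_zpowers, hz2, pow_one]
    have h1 : IsPGroup 2 (Subgroup.zpowers z ⊔ Q : Subgroup G) :=
      IsPGroup.to_sup_of_normal_right' hp2 hQ (Subgroup.zpowers_le.mpr hzQ)
    have hzS : z ∈ (Subgroup.zpowers z ⊔ Q : Subgroup G) :=
      (le_sup_left : Subgroup.zpowers z ≤ _) (Subgroup.mem_zpowers z)
    have h2 := hmax _ h1 (Subgroup.le_normalizer hzS) le_sup_right
    have hzQ' : z ∈ Q := h2 ▸ hzS
    exact ⟨P, hmax P P.2 (Subgroup.le_normalizer (hQP hzQ')) hQP⟩
  · refine ⟨P, ?_⟩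
    by_contra hne
    have hlt : Q < (P : Subgroup G) := lt_of_le_of_ne hQP (Ne.symm hne)
    have hpr : p.Prime := Fact.out
    -- the odd-order subgroup `M = P O(G)`
    haveI hOn : (oddCore G).Normal := by unfold oddCore; infer_instance
    have hModd : Odd (Nat.card ((P : Subgroup G) ⊔ oddCore G : Subgroup G)) := by
      apply Nat.coprime_two_right.mp
      apply Cfsg.Agent.H60.coprime_card_sup
      · obtain ⟨k, hk⟩ := IsPGroup.iff_card.mp P.2
        rw [hk]
        exact Nat.Coprime.pow_left k ((Nat.coprime_primes hpr Nat.prime_two).mpr hp)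
      · exact Nat.coprime_two_right.mpr (odd_card_oddCore G)
    set M : Subgroup G := (P : Subgroup G) ⊔ oddCore G with hM
    have hzM : ∀ m ∈ M, z * m * z⁻¹ ∈ M := by
      intro m hm
      have : z * m * z⁻¹ = (z * m * z⁻¹ * m⁻¹) * m := by group
      rw [this]
      exact M.mul_mem ((le_sup_right : oddCore G ≤ M) (hzO m)) hm
    set N : Subgroup G := Subgroup.normalizer (Q : Set G) ⊓ M with hN
    have hzN1 : ∀ x ∈ N, z * x * z⁻¹ ∈ N := by
      intro x hx
      have hx' := Subgroup.mem_inf.mp hx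
      exact Subgroup.mem_inf.mpr
        ⟨Subgroup.mul_mem _ (Subgroup.mul_mem _ hzQ hx'.1) (Subgroup.inv_mem _ hzQ), hzM x hx'.2⟩
    have hzN : z ∈ Subgroup.normalizer (N : Set G) := by
      rw [Subgroup.mem_normalizer_iff]
      intro x
      refine ⟨hzN1 x, fun hx => ?_⟩
      have h := hzN1 _ hx
      have e : z * (z * x * z⁻¹) * z⁻¹ = x := by
        rw [hzi]
        calc z * (z * x * z) * z = (z * z) * x * (z * z) := by group
          _ = x := by rw [hzz, one_mul, mul_one]
      rwa [e] at h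
    have hNodd : Odd (Nat.card N) := hModd.of_dvd_nat (Subgroup.card_dvd_of_le inf_le_right)
    have hQN : Q ≤ N := le_inf Subgroup.le_normalizer (hQP.trans le_sup_left)
    let φ : MulAut ↥N := normConj N z hzN
    have hφ : φ ^ 2 = 1 := by
      apply MulEquiv.ext
      intro x
      apply Subtype.ext
      show z * (z * (x : G) * z⁻¹) * z⁻¹ = x
      rw [hzi]
      calc z * (z * (x : G) * z) * z = (z * z) * x * (z * z) := by group
        _ = x := by rw [hzz, one_mul, mul_one]
    obtain ⟨R, hR⟩ := exists_fixed_sylow φ hφ hNodd p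
    haveI hQn : (Q.subgroupOf N).Normal :=
      (Subgroup.normal_subgroupOf_iff_le_normalizer hQN).mpr inf_le_left
    have hQR : Q.subgroupOf N ≤ R := by
      have h1 : IsPGroup p ((R : Subgroup ↥N) ⊔ Q.subgroupOf N : Subgroup ↥N) :=
        IsPGroup.to_sup_of_normal_right R.2 hQ.comap_subtype
      have h2 := R.is_maximal' h1 le_sup_left
      rw [← h2]
      exact le_sup_right
    set R₁ : Subgroup G := (R : Subgroup ↥N).map N.subtype with hR₁
    have hR₁p : IsPGroup p R₁ := R.2.map _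
    have hQR₁ : Q ≤ R₁ := by
      intro q hq
      exact ⟨⟨q, hQN hq⟩, hQR (Subgroup.mem_subgroupOf.mpr hq), rfl⟩
    have hzR1 : ∀ x ∈ R₁, z * x * z⁻¹ ∈ R₁ := by
      rintro x ⟨y, hy, rfl⟩
      have h1 : φ • y ∈ φ • (R : Subgroup ↥N) := Subgroup.smul_mem_pointwise_smul y φ R hy
      rw [← Sylow.pointwise_smul_def, hR] at h1
      exact ⟨φ • y, h1, rfl⟩
    have hzR₁ : z ∈ Subgroup.normalizer (R₁ : Set G) := by
      rw [Subgroup.mem_normalizer_iff]
      intro x
      refine ⟨hzR1 x, fun hx => ?_⟩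
      have h := hzR1 _ hx
      have e : z * (z * x * z⁻¹) * z⁻¹ = x := by
        rw [hzi]
        calc z * (z * x * z) * z = (z * z) * x * (z * z) := by group
          _ = x := by rw [hzz, one_mul, mul_one]
      rwa [e] at h
    have hR₁Q : R₁ = Q := hmax R₁ hR₁p hzR₁ hQR₁
    obtain ⟨x, hxP, hxQ, hxn⟩ := exists_normalizing_of_lt P.2 hlt
    have hxN : x ∈ N := Subgroup.mem_inf.mpr ⟨hxn, (le_sup_left : (P : Subgroup G) ≤ M) hxP⟩
    set S : Subgroup G := Subgroup.zpowers x ⊔ Q with hS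
    have hSP : S ≤ P := sup_le (Subgroup.zpowers_le.mpr hxP) hQP
    have hSp : IsPGroup p S := P.2.to_le hSP
    have hRS : (R : Subgroup ↥N) ≤ S.subgroupOf N := by
      intro y hy
      rw [Subgroup.mem_subgroupOf]
      have : (y : G) ∈ R₁ := ⟨y, hy, rfl⟩
      rw [hR₁Q] at this
      exact (le_sup_right : Q ≤ S) this
    have h3 : S.subgroupOf N = (R : Subgroup ↥N) :=
      R.is_maximal' (hSp.comap_subtype (K := N)) hRS
    have hxS : (⟨x, hxN⟩ : ↥N) ∈ S.subgroupOf N := by
      rw [Subgroup.mem_subgroupOf]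
      exact (le_sup_left : Subgroup.zpowers x ≤ S) (Subgroup.mem_zpowers x)
    rw [h3] at hxS
    have : x ∈ R₁ := ⟨⟨x, hxN⟩, hxS, rfl⟩
    rw [hR₁Q] at this
    exact hxQ this

end Cfsg.Agent.H27
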